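import Mathlib

/-!
Groups of linear maps containing the special linear group of an extension field: basic moves.
-/

set_option autoImplicit false

namespace CfsgLib.GeoExt

variable {F K V : Type*} [Field F] [Field K] [Algebra F K] [AddCommGroup V] [Module F V]
  [Module K V] [IsScalarTower F K V]

variable (F K V) in
/-- `G` contains the `K`-linear maps of determinant one over `F`, and moves some `K`-line off the
`K`-lines. -/
structure Setup (G : Subgroup (V ≃ₗ[F] V)) : Prop where
  prime : (Module.finrank F K).Prime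
  two_le : 2 ≤ Module.finrank K V
  klin : ∀ f : V ≃ₗ[K] V, LinearMap.det ((f : V →ₗ[K] V).restrictScalars F) = 1 →
    f.restrictScalars F ∈ G
  bad : ∃ g ∈ G, ∃ (x : V) (k : K), g (k • x) ∉ Submodule.span K {g x}

variable {G : Subgroup (V ≃ₗ[F] V)}

theorem sep {S : Submodule K V} {y : V} (hy : y ∉ S) :
    ∃ φ : V →ₗ[K] K, (∀ x ∈ S, φ x = 0) ∧ φ y = 1 := by
  obtain ⟨φ, hφy, hφ⟩ := Submodule.exists_dual_map_eq_bot_of_notMem hy inferInstance
  refine ⟨(φ y)⁻¹ • φ, fun x hx => ?_, by simp [inv_mul_cancel₀ hφy]⟩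
  have : φ x = 0 := (Submodule.mem_bot K).mp (hφ ▸ Submodule.mem_map_of_mem hx)
  simp [this]

variable (S : Setup F K V G)
include S

theorem Setup.tv_mem [Module.Finite K V] {φ : V →ₗ[K] K} {v : V} (h : φ v = 0) :
    ∃ f : V ≃ₗ[K] V, f.restrictScalars F ∈ G ∧ ∀ x, f x = x + φ x • v := by
  refine ⟨LinearEquiv.transvection h, S.klin _ ?_, fun x => rfl⟩
  rw [LinearMap.det_restrictScalars, LinearEquiv.transvection.coe_toLinearMap,
    LinearMap.transvection.det, h, add_zero, map_one]

theorem Setup.diag_mem [Module.Finite K V] (φ : V →ₗ[K] K) (v : V)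
    (h : Algebra.norm F (1 + φ v) = 1) :
    ∃ f : V ≃ₗ[K] V, f.restrictScalars F ∈ G ∧ ∀ x, f x = x + φ x • v := by
  have hd : LinearMap.det (LinearMap.transvection φ v) = 1 + φ v := LinearMap.transvection.det φ v
  have hne : LinearMap.det (LinearMap.transvection φ v) ≠ 0 := by
    rw [hd]; have := Module.finite_of_finrank_pos S.prime.pos
    intro h0; rw [h0, Algebra.norm_zero] at h; exact zero_ne_one h
  refine ⟨LinearEquiv.ofBijective (LinearMap.transvection φ v)
    (Module.End.isUnit_iff _ |>.1 ((LinearMap.isUnit_iff_isUnit_det _).2 (isUnit_iff_ne_zero.2 hne))),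
    S.klin _ ?_, fun x => rfl⟩
  rw [LinearMap.det_restrictScalars]
  show Algebra.norm F (LinearMap.det (LinearMap.transvection φ v)) = 1
  rw [hd]; exact h

theorem Setup.exists_off (x : V) : ∃ y : V, y ∉ Submodule.span K {x} := by
  by_contra h
  push Not at h
  have e : Submodule.span K {x} = ⊤ := top_le_iff.1 fun y _ => h y
  have h1 : Module.finrank K (Submodule.span K {x}) ≤ 1 := (finrank_span_le_card _).trans (by simp)
  rw [e, finrank_top] at h1
  have := S.two_le
  omega

theorem Setup.exists_move [Module.Finite K V] {x y : V} (hx : x ≠ 0) (hy : y ≠ 0) :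
    ∃ f : V ≃ₗ[K] V, f.restrictScalars F ∈ G ∧ f x = y := by
  have direct : ∀ a b : V, a ∉ Submodule.span K {b - a} →
      ∃ f : V ≃ₗ[K] V, f.restrictScalars F ∈ G ∧ f a = b := by
    intro a b h
    obtain ⟨φ, hφ, hφa⟩ := sep h
    obtain ⟨f, hf, hfx⟩ := S.tv_mem (hφ _ (Submodule.mem_span_singleton_self _))
    exact ⟨f, hf, by rw [hfx, hφa, one_smul, add_sub_cancel]⟩
  by_cases h : x ∈ Submodule.span K {y - x}
  · obtain ⟨w, hw⟩ := S.exists_off x
    obtain ⟨c, hc⟩ := Submodule.mem_span_singleton.1 h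
    have hc0 : c ≠ 0 := fun e => hx (by rw [← hc, e, zero_smul])
    have hyx : y = (c⁻¹ + 1) • x := by
      rw [add_smul, one_smul]
      nth_rewrite 1 [← hc]
      rw [smul_smul, inv_mul_cancel₀ hc0, one_smul]; abel
    have hd0 : c⁻¹ + 1 ≠ 0 := fun e => hy (by rw [hyx, e, zero_smul])
    obtain ⟨f₁, hf₁, h₁⟩ := direct x w (fun h' => by
      obtain ⟨d, hd⟩ := Submodule.mem_span_singleton.1 h'
      by_cases hd0 : d = 0
      · exact hx (by rw [← hd, hd0, zero_smul])
      refine hw (Submodule.mem_span_singleton.2 ⟨d⁻¹ + 1, ?_⟩)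
      rw [add_smul, one_smul]
      nth_rewrite 1 [← hd]
      rw [smul_smul, inv_mul_cancel₀ hd0, one_smul]; abel)
    have hw0 : w ≠ 0 := fun e => hw (e ▸ zero_mem _)
    obtain ⟨f₂, hf₂, h₂⟩ := direct w y (fun h' => by
      obtain ⟨d, hd⟩ := Submodule.mem_span_singleton.1 h'
      have hd0' : d ≠ 0 := fun e => hw0 (by rw [← hd, e, zero_smul])
      have e : d • y = (1 + d) • w := by
        rw [smul_sub, sub_eq_iff_eq_add] at hd
        rw [add_smul, one_smul]; exact hd
      by_cases h1d : (1 : K) + d = 0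
      · rw [h1d, zero_smul, hyx, smul_smul] at e
        exact hx ((smul_eq_zero.1 e).resolve_left (mul_ne_zero hd0' hd0))
      · refine hw (Submodule.mem_span_singleton.2 ⟨(1 + d)⁻¹ * (d * (c⁻¹ + 1)), ?_⟩)
        rw [mul_smul, mul_smul, ← hyx, e, smul_smul, inv_mul_cancel₀ h1d, one_smul])
    exact ⟨f₁.trans f₂, mul_mem hf₂ hf₁, by simp [h₁, h₂]⟩
  · exact direct x y h

omit S

variable (F) in
/-- The `K`-line of `x`, over `F`. -/
def kline (K : Type*) [Field K] [Algebra F K] [Module K V] [IsScalarTower F K V] (x : V) :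
    Submodule F V :=
  (Submodule.span K {x}).restrictScalars F

omit [IsScalarTower F K V] in
theorem smul_mem_span (k : K) (x : V) : k • x ∈ Submodule.span K {x} :=
  Submodule.smul_mem _ k (Submodule.mem_span_singleton_self x)

theorem mem_kline {x z : V} : z ∈ kline F K x ↔ ∃ k : K, k • x = z :=
  Submodule.mem_span_singleton

theorem finrank_kline {x : V} (hx : x ≠ 0) :
    Module.finrank F (kline F K x) = Module.finrank F K := by
  have hinj : Function.Injective ((LinearMap.toSpanSingleton K V x).restrictScalars F) :=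
    fun a b h => smul_left_injective K hx h
  have e : kline F K x = LinearMap.range ((LinearMap.toSpanSingleton K V x).restrictScalars F) := by
    ext z
    exact ⟨fun h => mem_kline.1 h, fun h => mem_kline.2 h⟩
  rw [e, LinearMap.finrank_range_of_inj hinj]

variable (K) in
/-- A translate of a `K`-line by an element of `G`. -/
def IsLine (G : Subgroup (V ≃ₗ[F] V)) (W : Submodule F V) : Prop :=
  ∃ g ∈ G, ∃ x : V, x ≠ 0 ∧ W = (kline F K x).map (g : V →ₗ[F] V)

theorem isLine_kline {x : V} (hx : x ≠ 0) : IsLine K G (kline F K x) :=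
  ⟨1, one_mem G, x, hx, (Submodule.map_id _).symm⟩

theorem IsLine.map {W : Submodule F V} (h : IsLine K G W) {g : V ≃ₗ[F] V} (hg : g ∈ G) :
    IsLine K G (W.map (g : V →ₗ[F] V)) := by
  obtain ⟨g₀, hg₀, x, hx, rfl⟩ := h
  refine ⟨g * g₀, mul_mem hg hg₀, x, hx, ?_⟩
  rw [← Submodule.map_comp]
  rfl

theorem IsLine.finrank {W : Submodule F V} (h : IsLine K G W) :
    Module.finrank F W = Module.finrank F K := by
  obtain ⟨g₀, -, x, hx, rfl⟩ := h
  rw [LinearEquiv.finrank_map_eq, finrank_kline hx]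

theorem IsLine.eq_of_le [Module.Finite F V] {W W' : Submodule F V} (h : IsLine K G W)
    (h' : IsLine K G W') (hle : W ≤ W') : W = W' :=
  Submodule.eq_of_le_of_finrank_eq hle (by rw [h.finrank, h'.finrank])

/-- Elements fixing a line pointwise translate anything off it along the line. -/
theorem Setup.move_out [Module.Finite K V] (S : Setup F K V G) {W : Submodule F V}
    (hW : IsLine K G W) {y w : V} (hy : y ∉ W) (hw : w ∈ W) :
    ∃ g ∈ G, (∀ z ∈ W, g z = z) ∧ g y = y + w := by
  obtain ⟨g₀, hg₀, x, hx, rfl⟩ := hW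
  obtain ⟨w', hw', rfl⟩ := hw
  have hy' : g₀.symm y ∉ Submodule.span K {x} := fun h =>
    hy ⟨g₀.symm y, h, g₀.apply_symm_apply y⟩
  obtain ⟨φ, hφ, hφy⟩ := sep hy'
  obtain ⟨f, hf, hfx⟩ := S.tv_mem (hφ w' hw')
  refine ⟨g₀ * f.restrictScalars F * g₀⁻¹, mul_mem (mul_mem hg₀ hf) (inv_mem hg₀), ?_, ?_⟩
  · rintro _ ⟨z, hz, rfl⟩
    show g₀ (f (g₀.symm (g₀ z))) = g₀ z
    rw [g₀.symm_apply_apply, hfx, hφ z hz, zero_smul, add_zero]
  · show g₀ (f (g₀.symm y)) = y + g₀ w'
    rw [hfx, hφy, one_smul, map_add, g₀.apply_symm_apply]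

/-- A set of scalars stable under multiplication by a non-rational element. -/
theorem eq_univ_of_stable (hp : (Module.finrank F K).Prime) (U : Submodule F K) {u : K}
    (hu : ∀ c : F, algebraMap F K c ≠ u) (h1 : (1 : K) ∈ U) (hmul : ∀ k ∈ U, u * k ∈ U) :
    ∀ k : K, k ∈ U := by
  let A : Subalgebra F K :=
    { carrier := {a | ∀ k ∈ U, a * k ∈ U}
      mul_mem' := fun {a b} ha hb k hk => by rw [mul_assoc]; exact ha _ (hb k hk)
      one_mem' := fun k hk => by rwa [one_mul]
      add_mem' := fun {a b} ha hb k hk => by rw [add_mul]; exact add_mem (ha k hk) (hb k hk)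
      zero_mem' := fun k _ => by rw [zero_mul]; exact zero_mem U
      algebraMap_mem' := fun c k hk => by rw [← Algebra.smul_def]; exact U.smul_mem c hk }
  have := Subalgebra.isSimpleOrder_of_finrank_prime F K hp
  rcases IsSimpleOrder.eq_bot_or_eq_top A with h | h
  · obtain ⟨c, hc⟩ := Algebra.mem_bot.1 (h ▸ (show u ∈ A from hmul))
    exact absurd hc (hu c)
  · intro k
    have hk : k ∈ A := h ▸ Algebra.mem_top
    simpa using hk 1 h1

theorem exists_norm_pair [Finite K] [Finite F] (b₁ b₂ : K)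
    (hb : ∀ c : F, c • b₁ ≠ b₂) (h₁ : b₁ ≠ 0) :
    ∃ l l' : F, b₂ + l • b₁ ≠ 0 ∧ b₂ + l' • b₁ ≠ 0 ∧
      Algebra.norm F ((b₂ + l' • b₁) / (b₂ + l • b₁)) = 1 ∧
      ∀ c : F, algebraMap F K c ≠ (b₂ + l' • b₁) / (b₂ + l • b₁) := by
  classical
  haveI := Fintype.ofFinite F
  have hne : ∀ l : F, b₂ + l • b₁ ≠ 0 := fun l h => hb (-l) (by
    rw [neg_smul]; exact (eq_neg_of_add_eq_zero_left h).symm)
  have hnn : ∀ l : F, Algebra.norm F (b₂ + l • b₁) ≠ 0 := fun l h =>
    hne l (Algebra.norm_eq_zero_iff.1 h)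
  obtain ⟨l, l', hll, he⟩ := Fintype.exists_ne_map_eq_of_card_lt
    (fun l : F => Units.mk0 _ (hnn l)) (by
      rw [Fintype.card_units]; have := Fintype.card_pos (α := F); omega)
  have he' : Algebra.norm F (b₂ + l • b₁) = Algebra.norm F (b₂ + l' • b₁) := congrArg Units.val he
  refine ⟨l, l', hne l, hne l', mul_right_cancel₀ (hnn l) (by
    rw [← map_mul, div_mul_cancel₀ _ (hne l), one_mul, he']), fun c hc => ?_⟩
  rw [eq_div_iff (hne l), ← Algebra.smul_def, smul_add, smul_smul] at hc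
  by_cases hc1 : c = 1
  · rw [hc1, one_smul, one_mul, add_right_inj] at hc
    exact hll (smul_left_injective F h₁ hc)
  · refine hb ((c - 1)⁻¹ * (l' - c * l)) ?_
    have e : (c - 1) • b₂ = (l' - c * l) • b₁ := by
      rw [sub_smul, sub_smul, one_smul]
      rw [← sub_eq_zero] at hc ⊢
      rw [← hc]; abel
    rw [mul_smul, ← e, smul_smul, inv_mul_cancel₀ (sub_ne_zero.2 hc1), one_smul]

end CfsgLib.GeoExt
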