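import Cfsg.Agent.GeoExt.Small

/-!
One transvection gives all of them.
-/

set_option autoImplicit false

namespace CfsgLib.GeoExt

variable {F V : Type*} [Field F] [AddCommGroup V] [Module F V]

theorem TvIn.conj {G : Subgroup (V ≃ₗ[F] V)} {φ : V →ₗ[F] F} {c : V} (h : TvIn G φ c)
    {g : V ≃ₗ[F] V} (hg : g ∈ G) : TvIn G (φ ∘ₗ (g.symm : V →ₗ[F] V)) (g c) := by
  obtain ⟨t, ht, htx⟩ := h
  refine ⟨g * t * g⁻¹, mul_mem (mul_mem hg ht) (inv_mem hg), fun x => ?_⟩
  show g (t (g.symm x)) = _
  rw [htx, map_add, g.apply_symm_apply, map_smul]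
  rfl

/-- A group transitive off the line of `c` it fixes is transitive on the non-zero forms killing
`c`. -/
theorem exists_dual_move [Finite F] [Finite V] (H : Subgroup (V ≃ₗ[F] V)) {c : V}
    (hc : c ≠ 0) (hfix : ∀ g ∈ H, g c = c) {y₀ : V} (hy₀ : y₀ ∉ Submodule.span F {c})
    (htr : ∀ y, y ∉ Submodule.span F {c} → ∃ g ∈ H, g y₀ = y)
    {φ₁ φ₂ : V →ₗ[F] F} (h₁ : φ₁ c = 0) (h₂ : φ₂ c = 0) (n₁ : φ₁ ≠ 0) (n₂ : φ₂ ≠ 0) :
    ∃ g ∈ H, φ₁ ∘ₗ (g.symm : V →ₗ[F] V) = φ₂ := by
  classical
  let act : MulAction H (Module.Dual F V) :=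
    { smul := fun g φ => φ ∘ₗ ((g : V ≃ₗ[F] V).symm : V →ₗ[F] V)
      one_smul := fun φ => LinearMap.ext fun _ => rfl
      mul_smul := fun g h φ => LinearMap.ext fun _ => rfl }
  haveI : Fintype F := Fintype.ofFinite F
  haveI : Fintype V := Fintype.ofFinite V
  haveI : Finite (V ≃ₗ[F] V) := Finite.of_injective _ DFunLike.coe_injective
  haveI : Finite (Module.Dual F V) := Finite.of_injective _ DFunLike.coe_injective
  haveI : Fintype H := Fintype.ofFinite H
  haveI : Fintype (Module.Dual F V) := Fintype.ofFinite _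
  have hinv : ∀ (g : H) (φ : Module.Dual F V) (x : V),
      (g • φ) x = φ ((g : V ≃ₗ[F] V).symm x) := fun g φ x => rfl
  -- fixed vectors and fixed forms
  have hcount : ∀ g : H, Fintype.card (MulAction.fixedBy V g) =
      Fintype.card (MulAction.fixedBy (Module.Dual F V) g) := by
    intro g
    let D : V →ₗ[F] V := ((g : V ≃ₗ[F] V) : V →ₗ[F] V) - LinearMap.id
    have e₁ : MulAction.fixedBy V g = (LinearMap.ker D : Set V) := by
      ext x
      show (g : V ≃ₗ[F] V) x = x ↔ (g : V ≃ₗ[F] V) x - x = 0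
      rw [sub_eq_zero]
    have e₂ : MulAction.fixedBy (Module.Dual F V) g =
        ((LinearMap.range D).dualAnnihilator : Set (Module.Dual F V)) := by
      ext φ
      show g • φ = φ ↔ φ ∈ (LinearMap.range D).dualAnnihilator
      rw [Submodule.mem_dualAnnihilator]
      constructor
      · rintro h _ ⟨x, rfl⟩
        show φ ((g : V ≃ₗ[F] V) x - x) = 0
        have := LinearMap.congr_fun h ((g : V ≃ₗ[F] V) x)
        rw [hinv, LinearEquiv.symm_apply_apply] at this
        rw [map_sub, ← this, sub_self]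
      · intro h
        refine LinearMap.ext fun x => ?_
        have := h _ ⟨(g : V ≃ₗ[F] V).symm x, rfl⟩
        change φ ((g : V ≃ₗ[F] V) ((g : V ≃ₗ[F] V).symm x) - (g : V ≃ₗ[F] V).symm x) = 0 at this
        rw [LinearEquiv.apply_symm_apply, map_sub, sub_eq_zero] at this
        rw [hinv, this]
    rw [Fintype.card_eq_nat_card, Fintype.card_eq_nat_card, e₁, e₂]
    show Nat.card (LinearMap.ker D) = Nat.card (LinearMap.range D).dualAnnihilator
    rw [Module.natCard_eq_pow_finrank (K := F), Module.natCard_eq_pow_finrank (K := F)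
      (V := (LinearMap.range D).dualAnnihilator)]
    congr 1
    have h1 := Subspace.finrank_add_finrank_dualAnnihilator_eq (LinearMap.range D)
    have h2 := D.finrank_range_add_finrank_ker
    omega
  have horb : Fintype.card (MulAction.orbitRel.Quotient H V) =
      Fintype.card (MulAction.orbitRel.Quotient H (Module.Dual F V)) :=
    mul_right_cancel₀ (b := Fintype.card H) Fintype.card_ne_zero
      (by
        rw [← MulAction.sum_card_fixedBy_eq_card_orbits_mul_card_group H V,
          ← MulAction.sum_card_fixedBy_eq_card_orbits_mul_card_group H (Module.Dual F V)]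
        exact Finset.sum_congr rfl fun g _ => hcount g)
  by_contra hno
  have key : ∀ φ ψ : Module.Dual F V,
      (Quotient.mk'' φ : MulAction.orbitRel.Quotient H (Module.Dual F V)) = Quotient.mk'' ψ →
        ∃ g : H, g • ψ = φ := fun φ ψ h => MulAction.mem_orbit_iff.1 (Quotient.exact' h)
  obtain ⟨ψ, -, hψ⟩ := sep (K := F) (S := (⊥ : Submodule F V)) (y := c) (by simpa using hc)
  let jD : Option (Option F) → MulAction.orbitRel.Quotient H (Module.Dual F V) := fun o =>
    Quotient.mk'' (match o with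
      | none => φ₁
      | some none => φ₂
      | some (some a) => a • ψ)
  have jinj : Function.Injective jD := by
    have val : ∀ (g : H) (φ : Module.Dual F V), (g • φ) c = φ c := fun g φ => by
      rw [hinv]
      nth_rewrite 1 [← hfix _ g.2]
      rw [LinearEquiv.symm_apply_apply]
    have zero : ∀ (g : H) (φ : Module.Dual F V), g • φ = 0 → φ = 0 := fun g φ h =>
      LinearMap.ext fun x => by
        have := LinearMap.congr_fun h ((g : V ≃ₗ[F] V) x)
        rwa [hinv, LinearEquiv.symm_apply_apply] at this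
    rintro (_ | _ | a) (_ | _ | b) h <;> obtain ⟨g, hg⟩ := key _ _ h <;> dsimp only at hg
    · rfl
    · refine absurd ?_ hno
      refine ⟨(g⁻¹ : H), (g⁻¹ : H).2, ?_⟩
      exact (inv_smul_eq_iff.2 hg.symm : g⁻¹ • (show Module.Dual F V from φ₁) = φ₂)
    · have e : b = 0 := by
        have := val g (b • ψ)
        rw [show g • (b • ψ) = φ₁ from hg, h₁] at this
        simpa [hψ] using this.symm
      rw [e, zero_smul] at hg
      exact absurd (hg.symm.trans (LinearMap.ext fun x => rfl)) n₁
    · exact absurd ⟨(g : V ≃ₗ[F] V), g.2, hg⟩ hno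
    · rfl
    · have e : b = 0 := by
        have := val g (b • ψ)
        rw [show g • (b • ψ) = φ₂ from hg, h₂] at this
        simpa [hψ] using this.symm
      rw [e, zero_smul] at hg
      exact absurd (hg.symm.trans (LinearMap.ext fun x => rfl)) n₂
    · have e : a = 0 := by
        have := val g φ₁
        rw [show g • φ₁ = a • ψ from hg, h₁] at this
        simpa [hψ] using this
      exact absurd (zero g φ₁ (hg.trans (by rw [e, zero_smul]))) n₁
    · have e : a = 0 := by
        have := val g φ₂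
        rw [show g • φ₂ = a • ψ from hg, h₂] at this
        simpa [hψ] using this
      exact absurd (zero g φ₂ (hg.trans (by rw [e, zero_smul]))) n₂
    · have := val g (b • ψ)
      rw [show g • (b • ψ) = a • ψ from hg] at this
      simp only [LinearMap.smul_apply, hψ, smul_eq_mul, mul_one] at this
      rw [this]
  let jV : Option F → MulAction.orbitRel.Quotient H V := fun o =>
    Quotient.mk'' (o.elim y₀ (fun a => a • c))
  have jsurj : Function.Surjective jV := by
    intro q
    induction q using Quotient.inductionOn' with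
    | h y =>
      by_cases hy : y ∈ Submodule.span F {c}
      · obtain ⟨a, ha⟩ := Submodule.mem_span_singleton.1 hy
        exact ⟨some a, congrArg Quotient.mk'' ha⟩
      · obtain ⟨g, hg, hgy⟩ := htr y hy
        exact ⟨none, (Quotient.sound' (⟨⟨g, hg⟩, hgy⟩ : y ∈ MulAction.orbit H y₀)).symm⟩
  have h3 := Fintype.card_le_of_injective jD jinj
  have h4 := Fintype.card_le_of_surjective jV jsurj
  rw [Fintype.card_option, Fintype.card_option] at h3
  rw [Fintype.card_option] at h4
  omega

variable {K : Type*} [Field K] [Algebra F K] [Module K V] [IsScalarTower F K V] [Finite F]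
  [Finite K] [Finite V] {G : Subgroup (V ≃ₗ[F] V)}

/-- Every transvection lies in `G`. -/
theorem Setup.tvIn_all (S : Setup F K V G) (φ : V →ₗ[F] F) (c : V) (h : φ c = 0) : TvIn G φ c := by
  rcases eq_or_ne φ 0 with rfl | hφ
  · exact ⟨1, one_mem G, fun x => by simp⟩
  rcases eq_or_ne c 0 with rfl | hc
  · exact ⟨1, one_mem G, fun x => by simp⟩
  obtain ⟨φ₀, c₀, h₀, hφ₀, hc₀, ht⟩ := S.hasTv
  obtain ⟨f, hf, hfc⟩ := S.exists_move hc₀ hc
  have ht' := ht.conj hf
  rw [show f.restrictScalars F c₀ = c from hfc] at ht'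
  set φ' := φ₀ ∘ₗ ((f.restrictScalars F).symm : V →ₗ[F] V) with hφ'
  have h' : φ' c = 0 := by
    show φ₀ ((f.restrictScalars F).symm c) = 0
    rw [show (f.restrictScalars F).symm c = c₀ by rw [← hfc]; exact f.symm_apply_apply c₀, h₀]
  have n' : φ' ≠ 0 := fun e => hφ₀ (LinearMap.ext fun x => by
    have := LinearMap.congr_fun e (f.restrictScalars F x)
    rwa [hφ', LinearMap.comp_apply, LinearEquiv.coe_coe, LinearEquiv.symm_apply_apply] at this)
  obtain ⟨y₀, hy₀⟩ : ∃ y₀ : V, y₀ ∉ Submodule.span F {c} := by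
    obtain ⟨y, hy⟩ := S.exists_off c
    refine ⟨y, fun h => hy ?_⟩
    obtain ⟨a, rfl⟩ := Submodule.mem_span_singleton.1 h
    rw [← algebraMap_smul K]; exact smul_mem_span _ c
  have li : ∀ y, y ∉ Submodule.span F {c} → LinearIndependent F ![c, y] := fun y hy =>
    (LinearIndependent.pair_iff' hc).2 fun a ha => hy (Submodule.mem_span_singleton.2 ⟨a, ha⟩)
  let H : Subgroup (V ≃ₗ[F] V) :=
    { carrier := {g | g ∈ G ∧ g c = c}
      mul_mem' := fun {a b} ha hb => ⟨mul_mem ha.1 hb.1, by
        show a (b c) = c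
        rw [hb.2, ha.2]⟩
      one_mem' := ⟨one_mem G, rfl⟩
      inv_mem' := fun {a} ha => ⟨inv_mem ha.1, by
        show a.symm c = c
        nth_rewrite 1 [← ha.2]
        exact a.symm_apply_apply c⟩ }
  obtain ⟨g, hg, hgφ⟩ := exists_dual_move H hc (fun g hg => hg.2) hy₀ (fun y hy => by
    obtain ⟨g, hg, hgi⟩ := S.trans_le 2 (by omega) S.prime.two_le _ _ (li y₀ hy₀) (li y hy)
    exact ⟨g, ⟨hg, hgi 0⟩, hgi 1⟩) h' h n' hφ
  have := ht'.conj hg.1
  rwa [hgφ, hg.2] at this

end CfsgLib.GeoExt
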