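import Cfsg.Prelude.Def_GeometricClasses
import Cfsg.Agent.GeoExt.Finish
import Cfsg.Agent.GeoPrime.Proper
import Cfsg.Agent.SLn.Basic

/-!
The normaliser of a field of matrices of prime degree is maximal.
-/

set_option autoImplicit false

namespace CfsgLib.GeoExt

open Matrix

variable {ι : Type} [Fintype ι] [DecidableEq ι] {F : Type*} [Field F]

/-- An invertible matrix as a linear equivalence. -/
def glEquiv : GL ι F →* ((ι → F) ≃ₗ[F] (ι → F)) where
  toFun g :=
    { toFun := fun v => (g : Matrix ι ι F) *ᵥ v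
      map_add' := fun u v => mulVec_add _ u v
      map_smul' := fun c v => mulVec_smul _ c v
      invFun := fun v => ((g⁻¹ : GL ι F) : Matrix ι ι F) *ᵥ v
      left_inv := fun v => GeoPrime.gl_inv_mulVec g v
      right_inv := fun v => GeoPrime.gl_mulVec_inv g v }
  map_one' := LinearEquiv.ext fun v => one_mulVec v
  map_mul' g h := LinearEquiv.ext fun v =>
    (mulVec_mulVec v (g : Matrix ι ι F) (h : Matrix ι ι F)).symm

theorem glEquiv_apply (g : GL ι F) (v : ι → F) : glEquiv g v = (g : Matrix ι ι F) *ᵥ v := rfl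

theorem glEquiv_injective : Function.Injective (glEquiv (ι := ι) (F := F)) := fun g h e =>
  Units.ext (Matrix.ext_iff_mulVec.2 fun v => LinearEquiv.congr_fun e v)

theorem glEquiv_surjective : Function.Surjective (glEquiv (ι := ι) (F := F)) := fun f => by
  refine ⟨⟨LinearMap.toMatrix' (f : (ι → F) →ₗ[F] (ι → F)),
    LinearMap.toMatrix' (f.symm : (ι → F) →ₗ[F] (ι → F)), ?_, ?_⟩, LinearEquiv.ext fun v => ?_⟩
  · rw [← LinearMap.toMatrix'_comp, LinearEquiv.comp_coe, LinearEquiv.symm_trans_self]
    exact LinearMap.toMatrix'_id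
  · rw [← LinearMap.toMatrix'_comp, LinearEquiv.comp_coe, LinearEquiv.self_trans_symm]
    exact LinearMap.toMatrix'_id
  · exact LinearMap.congr_fun (Matrix.toLin'_toMatrix' (f : (ι → F) →ₗ[F] (ι → F))) v

theorem det_glEquiv (g : GL ι F) :
    LinearMap.det ((glEquiv g : (ι → F) ≃ₗ[F] (ι → F)) : (ι → F) →ₗ[F] (ι → F)) =
      (g : Matrix ι ι F).det := by
  rw [← LinearMap.det_toLin' (g : Matrix ι ι F)]
  rfl

theorem maximal_field_normalizer [Fintype F] (n r : ℕ) (hr : r.Prime) (hrn : r ∣ n) (hlt : r < n)
    (K : Subalgebra F (Matrix (Fin n) (Fin n) F)) (hK : Cfsg.Geo.IsFieldSubalgebra r K) :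
    IsCoatom (Cfsg.Geo.subalgebraNormalizer K) ∧
      Cfsg.Geo.IsMaximalIn (Cfsg.Geo.specialLinear (Fin n) F)
        (Cfsg.Geo.subalgebraNormalizer K ⊓ Cfsg.Geo.specialLinear (Fin n) F) := by
  classical
  set N := Cfsg.Geo.subalgebraNormalizer K with hN
  set SL := Cfsg.Geo.specialLinear (Fin n) F with hSL
  obtain ⟨d, hd⟩ := hrn
  have hd2 : 2 ≤ d := by
    rcases d with _ | _ | d
    · simp at hd; omega
    · simp at hd; omega
    · omega
  have hn : 3 ≤ n := by
    have := hr.two_le
    have := Nat.mul_le_mul this hd2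
    omega
  -- the field and the vector space over it
  haveI : Nontrivial K := Module.nontrivial_of_finrank_pos (R := F) (by rw [hK.finrank_eq]; exact hr.pos)
  letI : Field K := IsField.toField (R := K)
    { exists_pair_ne := exists_pair_ne K
      mul_comm := fun a b => Subtype.ext (hK.comm a a.2 b b.2)
      mul_inv_cancel := fun {a} ha => by
        obtain ⟨b, hb, hab⟩ := hK.inv a a.2 (fun h => ha (Subtype.ext h))
        exact ⟨⟨b, hb⟩, Subtype.ext hab⟩ }
  letI : Module K (Fin n → F) :=
    { smul := fun k v => (k : Matrix (Fin n) (Fin n) F) *ᵥ v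
      one_smul := fun v => one_mulVec v
      mul_smul := fun a b v => (mulVec_mulVec v _ _).symm
      smul_zero := fun a => mulVec_zero _
      smul_add := fun a u v => mulVec_add _ u v
      add_smul := fun a b v => add_mulVec _ _ v
      zero_smul := fun v => zero_mulVec v }
  have hsmul : ∀ (k : K) (v : Fin n → F), k • v = (k : Matrix (Fin n) (Fin n) F) *ᵥ v := fun _ _ => rfl
  haveI : IsScalarTower F K (Fin n → F) := ⟨fun c k v => smul_mulVec c _ v⟩
  haveI : Finite K := Finite.of_injective (fun k : K => (k : Matrix (Fin n) (Fin n) F))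
    Subtype.val_injective
  have hrK : Module.finrank F K = r := hK.finrank_eq
  have hmd : Module.finrank K (Fin n → F) = d := by
    have h := Module.finrank_mul_finrank F K (Fin n → F)
    rw [hrK, Module.finrank_fin_fun] at h
    exact Nat.eq_of_mul_eq_mul_left hr.pos (h.trans hd)
  -- linear maps over the field lie in the normaliser
  have hlin : ∀ g : GL (Fin n) F, (∀ (k : K) (v : Fin n → F), glEquiv g (k • v) = k • glEquiv g v) →
      g ∈ N := by
    intro g hg
    have hcomm : ∀ k ∈ K, (g : Matrix (Fin n) (Fin n) F) * k = k * g := fun k hk => by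
      refine Matrix.ext_iff_mulVec.2 fun v => ?_
      rw [← mulVec_mulVec, ← mulVec_mulVec]
      exact hg ⟨k, hk⟩ v
    refine GeoPrime.mem_subalgebraNormalizer.2 fun k => ⟨fun hk => ?_, fun hk => ?_⟩
    · rwa [hcomm k hk, mul_assoc, Units.mul_inv, mul_one]
    · have h := (hcomm _ hk).trans (Units.inv_mul_cancel_right _ g)
      rwa [(g.mul_right_inj).1 h] at hk
  -- anything outside moves a line off the lines
  have hout : ∀ g : GL (Fin n) F, g ∉ N → ∃ (x : Fin n → F) (k : K),
      glEquiv g (k • x) ∉ Submodule.span K {glEquiv g x} := by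
    intro g hg
    by_contra hno
    push Not at hno
    have hinto : ∀ k ∈ K,
        (g : Matrix (Fin n) (Fin n) F) * k * ((g⁻¹ : GL (Fin n) F) : Matrix _ _ F) ∈ K := by
      intro k hk
      set P := (g : Matrix (Fin n) (Fin n) F) * k * ((g⁻¹ : GL (Fin n) F) : Matrix _ _ F) with hP
      have hline : ∀ y : Fin n → F, ∃ a : K, P *ᵥ y = a • y := fun y => by
        obtain ⟨a, ha⟩ := Submodule.mem_span_singleton.1 (hno ((glEquiv g).symm y) ⟨k, hk⟩)
        refine ⟨a, ?_⟩
        rw [LinearEquiv.apply_symm_apply] at ha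
        rw [ha, hP, ← mulVec_mulVec, ← mulVec_mulVec]
        rfl
      haveI : Nontrivial (Fin n → F) :=
        Module.nontrivial_of_finrank_pos (R := F) (by rw [Module.finrank_fin_fun]; omega)
      obtain ⟨y₀, hy₀⟩ := exists_ne (0 : Fin n → F)
      obtain ⟨a₀, ha₀⟩ := hline y₀
      have hoff : ∀ y, y ∉ Submodule.span K {y₀} → P *ᵥ y = a₀ • y := fun y hy => by
        obtain ⟨a, ha⟩ := hline y
        obtain ⟨b, hb⟩ := hline (y₀ + y)
        rw [mulVec_add, ha₀, ha, smul_add] at hb
        have h0 : (a₀ - b) • y₀ + (a - b) • y = 0 := by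
          rw [sub_smul, sub_smul, sub_add_sub_comm, hb, sub_self]
        obtain ⟨h1, h2⟩ := LinearIndependent.pair_iff.1 ((LinearIndependent.pair_iff' hy₀).2
          fun c hc => hy (by rw [← hc]; exact smul_mem_span c y₀)) _ _ h0
        rw [ha, sub_eq_zero.1 h2, ← sub_eq_zero.1 h1]
      have hall : ∀ y, P *ᵥ y = a₀ • y := fun y => by
        by_cases hy : y ∈ Submodule.span K {y₀}
        · obtain ⟨w, hw⟩ : ∃ w, w ∉ Submodule.span K {y₀} := by
            by_contra h
            push Not at h
            have := finrank_span_singleton (K := K) hy₀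
            rw [(top_le_iff.1 fun v _ => h v : Submodule.span K {y₀} = ⊤), finrank_top, hmd] at this
            omega
          have h1 := hoff (y + w) (fun h => hw (by simpa using sub_mem h hy))
          rw [mulVec_add, hoff w hw, smul_add] at h1
          exact add_right_cancel h1
        · exact hoff y hy
      have hPa : P = (a₀ : Matrix (Fin n) (Fin n) F) := Matrix.ext_iff_mulVec.2 hall
      exact hPa ▸ a₀.2
    refine hg (GeoPrime.mem_subalgebraNormalizer.2 fun k => ⟨hinto k, fun hk => ?_⟩)
    have hinj : Function.Injective (fun j : K =>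
        (⟨_, hinto j j.2⟩ : K)) := fun a b e => Subtype.ext (by
      have := congrArg (fun A : K => ((g⁻¹ : GL (Fin n) F) : Matrix (Fin n) (Fin n) F) *
        (A : Matrix (Fin n) (Fin n) F) * (g : Matrix (Fin n) (Fin n) F)) e
      simpa [mul_assoc] using this)
    obtain ⟨j, hj⟩ := Finite.surjective_of_injective hinj ⟨_, hk⟩
    have := congrArg (fun A : K => ((g⁻¹ : GL (Fin n) F) : Matrix (Fin n) (Fin n) F) *
        (A : Matrix (Fin n) (Fin n) F) * (g : Matrix (Fin n) (Fin n) F)) hj
    have hjk : (j : Matrix (Fin n) (Fin n) F) = k := by simpa [mul_assoc] using this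
    exact hjk ▸ j.2
  -- overgroups
  have hover : ∀ M : Subgroup (GL (Fin n) F), N ⊓ SL ≤ M → ∀ g ∈ M, g ∉ N → SL ≤ M := by
    intro M hM g hgM hgN
    have S : Setup F K (Fin n → F) (M.map glEquiv) :=
      { prime := hrK ▸ hr
        two_le := hmd ▸ hd2
        klin := fun f hf => by
          obtain ⟨h, hh⟩ := glEquiv_surjective (f.restrictScalars F)
          refine ⟨h, hM ⟨hlin h fun k v => ?_, GeoPrime.mem_specialLinear.2 ?_⟩, hh⟩
          · rw [hh]; exact map_smul f k v
          · rw [← det_glEquiv, hh]; exact hf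
        bad := by
          obtain ⟨x, k, hx⟩ := hout g hgN
          exact ⟨_, ⟨g, hgM, rfl⟩, x, k, hx⟩ }
    haveI : Nontrivial (Fin n) := Fin.nontrivial_iff_two_le.2 (by omega)
    have htop := SLn.eq_top_of_transvection (M.comap (Matrix.SpecialLinearGroup.toGL))
      (fun i j hij c => by
        obtain ⟨_, ⟨h, hhM, rfl⟩, hh⟩ := S.tvIn_all (c • LinearMap.proj j) (Pi.single i 1)
          (by simp [hij.symm])
        rw [Subgroup.mem_comap]
        have e : Matrix.SpecialLinearGroup.toGL (Matrix.SpecialLinearGroup.transvection hij c) = h := by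
          refine glEquiv_injective (LinearEquiv.ext fun v => ?_)
          rw [hh]
          refine funext fun l => ?_
          show (Matrix.SpecialLinearGroup.transvection hij c • v) l = _
          rw [SLn.transvection_smul_apply hij]
          by_cases hl : l = i <;> simp [hl]
        exact e ▸ hhM)
    intro s hs
    let s' : Matrix.SpecialLinearGroup (Fin n) F :=
      ⟨(s : Matrix (Fin n) (Fin n) F), GeoPrime.mem_specialLinear.1 hs⟩
    have h := htop.ge (Subgroup.mem_top s')
    rw [Subgroup.mem_comap] at h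
    rwa [show s = Matrix.SpecialLinearGroup.toGL s' from Units.ext rfl]
  -- the normaliser misses part of the special linear group
  have hnle : ¬ SL ≤ N := by
    refine GeoPrime.sl_not_le_subalgebraNormalizer hn hK.inv ?_
    by_contra hno
    push Not at hno
    have hbot : (⊥ : Subalgebra F K) = ⊤ := top_le_iff.1 fun k _ => by
      obtain ⟨c, hc⟩ := hno k k.2
      exact Algebra.mem_bot.2 ⟨c, Subtype.ext (by rw [hc, ← Algebra.algebraMap_eq_smul_one]; rfl)⟩
    have := Subalgebra.bot_eq_top_iff_finrank_eq_one.1 hbot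
    rw [hrK] at this
    exact hr.one_lt.ne' this
  refine ⟨⟨fun h => hnle (h ▸ le_top), fun M hM => ?_⟩,
    lt_of_le_not_ge inf_le_right (fun h => hnle (h.trans inf_le_left)), fun M hM hMle => ?_⟩
  · obtain ⟨g, hgM, hgN⟩ := SetLike.exists_of_lt hM
    have hSLM := hover M (inf_le_left.trans hM.le) g hgM hgN
    refine eq_top_iff.2 fun x _ => ?_
    -- an element of the normaliser with the same determinant
    have := Module.finite_of_finrank_pos (R := F) (M := K) (by rw [hrK]; exact hr.pos)
    obtain ⟨a, ha⟩ := FiniteField.norm_surjective F K (x : Matrix (Fin n) (Fin n) F).det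
    have ha0 : a ≠ 0 := fun h => by
      rw [h, Algebra.norm_zero] at ha
      exact (((Matrix.isUnit_iff_isUnit_det _).1 x.isUnit).ne_zero) ha.symm
    haveI : Nontrivial (Fin n → F) :=
      Module.nontrivial_of_finrank_pos (R := F) (by rw [Module.finrank_fin_fun]; omega)
    obtain ⟨v, hv⟩ := exists_ne (0 : Fin n → F)
    obtain ⟨φ, -, hφ⟩ := sep (show v ∉ (⊥ : Submodule K (Fin n → F)) by simpa using hv)
    have hdet : LinearMap.det (LinearMap.transvection φ ((a - 1) • v)) = a := by
      rw [LinearMap.transvection.det, map_smul, hφ, smul_eq_mul, mul_one, add_sub_cancel]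
    set f := LinearEquiv.ofBijective (LinearMap.transvection φ ((a - 1) • v))
      ((Module.End.isUnit_iff _).1 ((LinearMap.isUnit_iff_isUnit_det _).2
        (isUnit_iff_ne_zero.2 (by rw [hdet]; exact ha0)))) with hf
    obtain ⟨h, hh⟩ := glEquiv_surjective (f.restrictScalars F)
    have hhN : h ∈ N := hlin h fun k w => by rw [hh]; exact map_smul f k w
    have hhd : (h : Matrix (Fin n) (Fin n) F).det = (x : Matrix (Fin n) (Fin n) F).det := by
      rw [← det_glEquiv, hh, ← ha]
      show LinearMap.det ((LinearMap.transvection φ ((a - 1) • v)).restrictScalars F) = _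
      rw [LinearMap.det_restrictScalars, hdet]
    have hmem : x * h⁻¹ ∈ SL := by
      rw [hSL, Cfsg.Geo.specialLinear, MonoidHom.mem_ker, map_mul, map_inv, mul_inv_eq_one]
      exact Units.ext hhd.symm
    simpa using mul_mem (hSLM hmem) (hM.le hhN)
  · by_cases h : M ≤ N
    · exact Or.inl (le_antisymm (le_inf h hMle) hM)
    · obtain ⟨g, hgM, hgN⟩ := SetLike.not_le_iff_exists.1 h
      exact Or.inr (le_antisymm hMle (hover M hM g hgM hgN))

end CfsgLib.GeoExt
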