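import Cfsg.Agent.GeoExt.Trans

/-!
From translated lines to a transvection, and from one transvection to all.
-/

set_option autoImplicit false

namespace CfsgLib.GeoExt

variable {F K V : Type*} [Field F] [Field K] [Algebra F K] [AddCommGroup V] [Module F V]
  [Module K V] [IsScalarTower F K V] [Finite F] [Finite K] [Finite V]

variable {G : Subgroup (V ≃ₗ[F] V)}

/-- `G` contains the transvection of `φ` and `c`. -/
def TvIn (G : Subgroup (V ≃ₗ[F] V)) (φ : V →ₗ[F] F) (c : V) : Prop :=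
  ∃ g ∈ G, ∀ x, g x = x + φ x • c

/-- `G` contains a transvection other than the identity. -/
def HasTv (G : Subgroup (V ≃ₗ[F] V)) : Prop :=
  ∃ (φ : V →ₗ[F] F) (c : V), φ c = 0 ∧ φ ≠ 0 ∧ c ≠ 0 ∧ TvIn G φ c

omit [Module K V] [IsScalarTower F K V] [Finite F] [Finite K] [Finite V] in
theorem inv_apply_of_sq {t : V ≃ₗ[F] V} {A : V →ₗ[F] V} (ht : ∀ x, t x = x + A x)
    (hA : ∀ x, A (A x) = 0) (x : V) : t⁻¹ x = x - A x := by
  show t.symm x = _
  rw [LinearEquiv.symm_apply_eq, ht, map_sub, hA, sub_zero, sub_add_cancel]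

omit [Module K V] [IsScalarTower F K V] [Finite F] [Finite K] [Finite V] in
theorem hasTv_of_rank_one {g : V ≃ₗ[F] V} (hg : g ∈ G) {M : V →ₗ[F] V} (hgx : ∀ x, g x = x + M x)
    {c : V} (hc : c ≠ 0) (himg : ∀ x, ∃ l : F, l • c = M x) (hMc : M c = 0) (hne : ∃ x, M x ≠ 0) :
    HasTv G := by
  obtain ⟨ψ, -, hψ⟩ := sep (K := F) (S := (⊥ : Submodule F V)) (y := c) (by simpa using hc)
  have key : ∀ x, M x = ψ (M x) • c := fun x => by
    obtain ⟨l, hl⟩ := himg x
    rw [← hl, map_smul, hψ, smul_eq_mul, mul_one]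
  refine ⟨ψ ∘ₗ M, c, by simp [hMc], fun h => ?_, hc, g, hg, fun x => by
    rw [hgx]; nth_rewrite 1 [key x]; rfl⟩
  obtain ⟨x, hx⟩ := hne
  exact hx (by rw [key x, show ψ (M x) = 0 from LinearMap.congr_fun h x, zero_smul])

/-- A short element of small rank yields a transvection under tuple transitivity. -/
theorem hasTv_of_small {t : V ≃ₗ[F] V} (htG : t ∈ G) {A : V →ₗ[F] V} (ht : ∀ x, t x = x + A x)
    (hA : ∀ x, A (A x) = 0) (hne : ∃ x, A x ≠ 0)
    (hker : Module.finrank F (LinearMap.range A) < Module.finrank F (LinearMap.ker A))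
    (hP : Trans G (Module.finrank F (LinearMap.range A) + 1)) : HasTv G := by
  obtain ⟨e, he⟩ : ∃ e, Module.finrank F (LinearMap.range A) = e + 1 := by
    obtain ⟨x, hx⟩ := hne
    have : 0 < Module.finrank F (LinearMap.range A) := Module.finrank_pos_iff_exists_ne_zero.2
      ⟨⟨A x, ⟨x, rfl⟩⟩, fun h => hx (Subtype.ext_iff.1 h)⟩
    exact ⟨_ - 1, (Nat.sub_add_cancel this).symm⟩
  rw [he] at hP hker
  set bas := Module.finBasisOfFinrankEq F (LinearMap.range A) he
  set u : Fin (e + 1) → V := fun i => (bas i : V)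
  have hui : LinearIndependent F u :=
    bas.linearIndependent.map' (LinearMap.range A).subtype (Submodule.ker_subtype _)
  have hspan : Submodule.span F (Set.range u) = LinearMap.range A := by
    rw [show u = (LinearMap.range A).subtype ∘ bas from rfl, Set.range_comp, Submodule.span_image,
      bas.span_eq, Submodule.map_top, Submodule.range_subtype]
  have huA : ∀ i, A (u i) = 0 := fun i => by
    obtain ⟨w, hw⟩ := (bas i).2
    show A (bas i : V) = 0
    rw [← hw, hA]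
  obtain ⟨h, hhk, hhr⟩ : ∃ h, A h = 0 ∧ h ∉ LinearMap.range A := by
    by_contra hno
    push Not at hno
    have := Submodule.finrank_mono (show LinearMap.ker A ≤ LinearMap.range A from hno)
    omega
  obtain ⟨v, hv⟩ := hne
  set u₀ : Fin e → V := fun i => u i.castSucc
  set ul := u (Fin.last e)
  have hu0i : LinearIndependent F u₀ := hui.comp _ (Fin.castSucc_injective e)
  have hk0 : ∀ w ∈ Submodule.span F (Set.range u₀), A w = 0 := fun w hw => by
    have : Submodule.span F (Set.range u₀) ≤ LinearMap.ker A :=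
      Submodule.span_le.2 (Set.range_subset_iff.2 fun i => huA _)
    exact this hw
  have ha : LinearIndependent F (Fin.snoc (α := fun _ => V) u h) :=
    linearIndependent_finSnoc.2 ⟨hui, by rwa [hspan]⟩
  have hb : LinearIndependent F (Fin.snoc (α := fun _ => V) (Fin.snoc (α := fun _ => V) u₀ v) ul) := by
    refine linearIndependent_finSnoc.2
      ⟨linearIndependent_finSnoc.2 ⟨hu0i, fun hm => hv (hk0 v hm)⟩, fun hm => ?_⟩
    rw [Fin.range_snoc, Submodule.mem_span_insert] at hm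
    obtain ⟨l, s, hs, hl⟩ := hm
    have h0 := congrArg A hl
    rw [huA, map_add, map_smul, hk0 s hs, add_zero] at h0
    have hl0 : l = 0 := (smul_eq_zero.1 h0.symm).resolve_right hv
    rw [hl0, zero_smul, zero_add] at hl
    have hui' : LinearIndependent F (Fin.snoc (α := fun _ => V) u₀ ul) := by
      rw [show (Fin.snoc (α := fun _ => V) u₀ ul) = u from Fin.snoc_init_self u]; exact hui
    exact (linearIndependent_finSnoc.1 hui').2 (hl ▸ hs)
  obtain ⟨g, hg, hgi⟩ := hP _ _ ha hb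
  have hgh : g h = ul := by simpa [Fin.snoc_last] using hgi (Fin.last (e + 1))
  have hgl : g ul = v := by
    have := hgi (Fin.last e).castSucc
    rwa [Fin.snoc_castSucc, Fin.snoc_castSucc, Fin.snoc_last] at this
  have hg0 : ∀ i, g (u₀ i) = u₀ i := fun i => by
    have := hgi i.castSucc.castSucc
    rwa [Fin.snoc_castSucc, Fin.snoc_castSucc, Fin.snoc_castSucc] at this
  -- the conjugate
  set B : V →ₗ[F] V := (g : V →ₗ[F] V) ∘ₗ A ∘ₗ (g.symm : V →ₗ[F] V) with hB
  have hBx : ∀ x, B x = g (A (g.symm x)) := fun x => rfl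
  have htB : ∀ x, (g * t * g⁻¹) x = x + B x := fun x => by
    show g (t (g.symm x)) = _
    rw [ht, map_add, g.apply_symm_apply, hBx]
  have hBB : ∀ x, B (B x) = 0 := fun x => by rw [hBx, hBx, g.symm_apply_apply, hA, map_zero]
  have hBu : ∀ i, B (u i) = 0 := fun i => by
    induction i using Fin.lastCases with
    | last => rw [hBx, show g.symm ul = h by rw [← hgh, g.symm_apply_apply], hhk, map_zero]
    | cast i => rw [hBx, show g.symm (u₀ i) = u₀ i by
        conv_lhs => rw [← hg0 i]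
        rw [g.symm_apply_apply], huA, map_zero]
  have hBA : ∀ x, B (A x) = 0 := fun x => by
    have : LinearMap.range A ≤ LinearMap.ker B := by
      rw [← hspan]; exact Submodule.span_le.2 (Set.range_subset_iff.2 hBu)
    exact this ⟨x, rfl⟩
  obtain ⟨w, hw⟩ : ∃ w, A w = ul := (bas (Fin.last e)).2
  refine hasTv_of_rank_one (mul_mem (mul_mem (mul_mem htG (mul_mem (mul_mem hg htG) (inv_mem hg)))
    (inv_mem htG)) (inv_mem (mul_mem (mul_mem hg htG) (inv_mem hg)))) (M := A ∘ₗ B) (c := A v)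
    (fun x => ?_) hv (fun x => ?_) ?_ ⟨g w, ?_⟩
  · show t ((g * t * g⁻¹) (t⁻¹ ((g * t * g⁻¹)⁻¹ x))) = x + A (B x)
    rw [inv_apply_of_sq htB hBB, inv_apply_of_sq ht hA, htB, ht]
    simp only [map_add, map_sub, hBB, hBA, hA, map_zero]
    abel
  · have hmem : A (g.symm x) ∈ Submodule.span F (Set.range u) := by rw [hspan]; exact ⟨_, rfl⟩
    obtain ⟨co, hco⟩ := (Submodule.mem_span_range_iff_exists_fun F).1 hmem
    refine ⟨co (Fin.last e), ?_⟩
    show _ = A (B x)
    rw [hBx, ← hco, Fin.sum_univ_castSucc, map_add, map_add, map_smul, map_smul, hgl, map_sum,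
      map_sum, Finset.sum_eq_zero fun i _ => by rw [map_smul, map_smul, hg0, huA, smul_zero],
      zero_add]
  · show A (B (A v)) = 0
    rw [hBA, map_zero]
  · show A (B (g w)) ≠ 0
    rw [hBx, g.symm_apply_apply, hw, hgl]
    exact hv

/-- Two lines meeting in a hyperplane give a transvection, small cases apart. -/
theorem Setup.hasTv_big (S : Setup F K V G) (h : (∃ μ : F, μ ≠ 0 ∧ μ ≠ 1) ∨
    3 ≤ Module.finrank F K ∨ 3 ≤ Module.finrank K V) : HasTv G := by
  obtain ⟨j, hj⟩ : ∃ j, Module.finrank F K = j + 2 := ⟨_ - 2, (Nat.sub_add_cancel S.prime.two_le).symm⟩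
  obtain ⟨x, hx⟩ := S.exists_vec
  set L := kline F K x with hL
  obtain ⟨c, hc, hcL⟩ := S.exists_tuple (j := j + 1) (by omega) hx
  have hspanc : Module.finrank F (Submodule.span F (Set.range c)) = j + 1 := by
    rw [finrank_span_eq_card hc, Fintype.card_fin]
  have hhull := S.hull_eq (by omega) (by omega) (S.trans_le (j + 1) (by omega) (by omega)) hc
  obtain ⟨W, hW, hcW, hLW⟩ : ∃ W, IsLine K G W ∧ Set.range c ⊆ W ∧ ¬ L ≤ W := by
    by_contra hno
    push Not at hno
    have hle : L ≤ hull K G (Set.range c) := le_sInf fun W hW => hno W hW.1 hW.2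
    rw [hhull] at hle
    have := Submodule.finrank_mono hle
    rw [finrank_kline hx, hspanc] at this
    omega
  obtain ⟨z₀, hz₀L, hz₀W⟩ : ∃ z₀ ∈ L, z₀ ∉ W := by simpa [SetLike.not_le_iff_exists] using hLW
  obtain ⟨v, hvW, hvL⟩ : ∃ v ∈ W, v ∉ L := by
    by_contra hno
    push Not at hno
    exact hLW (hW.eq_of_le (isLine_kline hx) hno).ge
  have hcLW : Submodule.span F (Set.range c) ≤ L ⊓ W :=
    le_inf (Submodule.span_le.2 (Set.range_subset_iff.2 hcL)) (Submodule.span_le.2 hcW)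
  have split : ∀ (U : Submodule F V) (y : V), Module.finrank F U = Module.finrank F K →
      Set.range c ⊆ U → y ∈ U → y ∉ Submodule.span F (Set.range c) →
      ∀ w ∈ U, ∃ l : F, ∃ s ∈ Submodule.span F (Set.range c), w = l • y + s := by
    intro U y hU hcU hy hy' w hw
    have e : Submodule.span F (Set.range (Fin.snoc (α := fun _ => V) c y)) = U := by
      refine Submodule.eq_of_le_of_finrank_eq (Submodule.span_le.2 ?_) ?_
      · rw [Fin.range_snoc]; exact Set.insert_subset hy hcU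
      · rw [finrank_span_eq_card (linearIndependent_finSnoc.2 ⟨hc, hy'⟩), Fintype.card_fin, hU]
        omega
    rw [← e, Fin.range_snoc, Submodule.mem_span_insert] at hw
    exact hw
  have hu0 : c 0 ≠ 0 := hc.ne_zero 0
  -- the first transvection
  obtain ⟨φ, hφ, hφv⟩ := sep (show v ∉ Submodule.span K {x} from hvL)
  set A : V →ₗ[F] V := (φ.smulRight z₀).restrictScalars F with hA
  have hAx : ∀ z, A z = φ z • z₀ := fun z => rfl
  have hAL : ∀ z ∈ L, A z = 0 := fun z hz => by rw [hAx, hφ z hz, zero_smul]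
  have hAim : ∀ z, A z ∈ L := fun z => (Submodule.span K {x}).smul_mem (φ z) hz₀L
  have hAA : ∀ z, A (A z) = 0 := fun z => hAL _ (hAim z)
  have hAv : A v = z₀ := by rw [hAx, hφv, one_smul]
  have hAmem : ∀ l : F, ∃ t ∈ G, ∀ z, t z = z + l • A z := fun l => by
    obtain ⟨f, hf, hfx⟩ := S.tv_mem (φ := φ) (v := l • z₀)
      (by rw [LinearMap.map_smul_of_tower, hφ z₀ hz₀L, smul_zero])
    exact ⟨_, hf, fun z => by
      show f z = _
      rw [hfx, hAx, smul_comm]⟩
  -- the second transvection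
  obtain ⟨g₀, hg₀, x', hx', rfl⟩ := id hW
  have memW : ∀ z, z ∈ (kline F K x').map (g₀ : V →ₗ[F] V) ↔ g₀.symm z ∈ kline F K x' := fun z =>
    ⟨by rintro ⟨y, hy, rfl⟩; simpa using hy, fun h => ⟨_, h, g₀.apply_symm_apply z⟩⟩
  obtain ⟨φ', hφ', hφz⟩ := sep (show g₀.symm z₀ ∉ Submodule.span K {x'} from
    fun h => hz₀W ((memW _).2 h))
  have hu : g₀.symm (c 0) ∈ kline F K x' := (memW _).1 (hcW ⟨0, rfl⟩)
  set B : V →ₗ[F] V := (g₀ : V →ₗ[F] V) ∘ₗ
    (φ'.smulRight (g₀.symm (c 0))).restrictScalars F ∘ₗ (g₀.symm : V →ₗ[F] V) with hB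
  have hBx : ∀ z, B z = g₀ (φ' (g₀.symm z) • g₀.symm (c 0)) := fun z => rfl
  have hBW : ∀ z ∈ (kline F K x').map (g₀ : V →ₗ[F] V), B z = 0 := fun z hz => by
    rw [hBx, hφ' _ ((memW z).1 hz), zero_smul, map_zero]
  have hBim : ∀ z, B z ∈ (kline F K x').map (g₀ : V →ₗ[F] V) := fun z =>
    ⟨_, (Submodule.span K {x'}).smul_mem _ hu, rfl⟩
  have hBB : ∀ z, B (B z) = 0 := fun z => hBW _ (hBim z)
  have hBz : B z₀ = c 0 := by rw [hBx, hφz, one_smul, g₀.apply_symm_apply]
  have hBmem : ∀ l : F, ∃ t ∈ G, ∀ z, t z = z + l • B z := fun l => by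
    obtain ⟨f, hf, hfx⟩ := S.tv_mem (φ := φ') (v := l • g₀.symm (c 0))
      (by rw [LinearMap.map_smul_of_tower, hφ' _ hu, smul_zero])
    exact ⟨g₀ * f.restrictScalars F * g₀⁻¹, mul_mem (mul_mem hg₀ hf) (inv_mem hg₀), fun z => by
      show g₀ (f (g₀.symm z)) = _
      rw [hfx, map_add, g₀.apply_symm_apply, hBx, smul_comm, map_smul]⟩
  -- how they meet
  have hAc : ∀ s ∈ Submodule.span F (Set.range c), A s = 0 := fun s hs => hAL s (hcLW hs).1
  have hBc : ∀ s ∈ Submodule.span F (Set.range c), B s = 0 := fun s hs => hBW s (hcLW hs).2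
  have hBL : ∀ z ∈ L, ∃ l : F, B z = l • c 0 := fun z hz => by
    obtain ⟨l, s, hs, rfl⟩ := split L z₀ (finrank_kline hx) (Set.range_subset_iff.2 hcL) hz₀L
      (fun h => hz₀W (hcLW h).2) z hz
    exact ⟨l, by rw [map_add, map_smul, hBz, hBc s hs, add_zero]⟩
  have hAW : ∀ z ∈ (kline F K x').map (g₀ : V →ₗ[F] V), ∃ l : F, A z = l • z₀ := fun z hz => by
    obtain ⟨l, s, hs, rfl⟩ := split _ v hW.finrank hcW hvW
      (fun h => hvL (hcLW h).1) z hz
    exact ⟨l, by rw [map_add, map_smul, hAv, hAc s hs, add_zero]⟩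
  have hAu : A (c 0) = 0 := hAc _ (Submodule.subset_span ⟨0, rfl⟩)
  have hBu : B (c 0) = 0 := hBc _ (Submodule.subset_span ⟨0, rfl⟩)
  have hABA : ∀ z, A (B (A z)) = 0 := fun z => by
    obtain ⟨l, hl⟩ := hBL _ (hAim z)
    rw [hl, map_smul, hAu, smul_zero]
  obtain ⟨y, hy⟩ : ∃ y, B y = v := by
    obtain ⟨a, ha⟩ := mem_kline.1 hu
    obtain ⟨b, hb⟩ := mem_kline.1 ((memW v).1 hvW)
    have ha0 : a ≠ 0 := fun e => hu0 (g₀.symm.map_eq_zero_iff.1 (by rw [← ha, e, zero_smul]))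
    refine ⟨g₀ ((b / a) • g₀.symm z₀), ?_⟩
    rw [hBx, g₀.symm_apply_apply, φ'.map_smul, hφz, smul_eq_mul, mul_one, ← ha, smul_smul,
      div_mul_cancel₀ _ ha0, hb, g₀.apply_symm_apply]
  set C : F → V →ₗ[F] V := fun μ => A ∘ₗ B - B ∘ₗ A + μ • (B ∘ₗ A ∘ₗ B) with hC
  have hCx : ∀ μ z, C μ z = A (B z) - B (A z) + μ • B (A (B z)) := fun μ z => rfl
  have hCmem : ∀ μ : F, μ ≠ 0 → ∃ t ∈ G, ∀ z, t z = z + C μ z := by
    intro μ hμ
    obtain ⟨a, haG, ha⟩ := hAmem μ⁻¹
    obtain ⟨b, hbG, hb⟩ := hBmem μ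
    refine ⟨a * b * a⁻¹ * b⁻¹, mul_mem (mul_mem (mul_mem haG hbG) (inv_mem haG)) (inv_mem hbG),
      fun z => ?_⟩
    show a (b (a⁻¹ (b⁻¹ z))) = z + C μ z
    rw [inv_apply_of_sq (A := μ⁻¹ • A) (t := a) ha (fun w => by simp [hAA]),
      inv_apply_of_sq (A := μ • B) (t := b) hb (fun w => by simp [hBB]), hb, ha, hCx]
    simp only [LinearMap.smul_apply, map_add, map_sub, map_smul, hAA, hBB, hABA, smul_zero,
      map_zero, sub_zero, add_zero, smul_add, smul_sub, smul_smul]
    match_scalars <;> field_simp <;> ring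
  have hCL : ∀ μ, ∀ z ∈ L, C μ z = 0 := fun μ z hz => by
    obtain ⟨l, hl⟩ := hBL z hz
    rw [hCx, hl, hAL z hz, map_smul, hAu]
    simp
  have hCim : ∀ μ z, C μ z ∈ L := fun μ z => by
    obtain ⟨l, hl⟩ := hBL _ (hAim z)
    obtain ⟨m, hm⟩ := hBL _ (hAim (B z))
    rw [hCx, hl, hm]
    have hcu : c 0 ∈ L := hcL 0
    exact add_mem (sub_mem (hAim _) (L.smul_mem l hcu)) (L.smul_mem _ (L.smul_mem m hcu))
  by_cases hq : ∃ μ : F, μ ≠ 0 ∧ μ ≠ 1
  · obtain ⟨μ, hμ0, hμ1⟩ := hq
    obtain ⟨s, hsG, hs⟩ := hCmem μ hμ0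
    obtain ⟨t, htG, ht⟩ := hCmem 1 one_ne_zero
    refine hasTv_of_rank_one (mul_mem hsG (inv_mem htG)) (M := (μ - 1) • (B ∘ₗ A ∘ₗ B))
      (fun z => ?_) hu0 (fun z => ?_) (by simp [hBu]) ⟨y, ?_⟩
    · show s (t⁻¹ z) = _
      rw [inv_apply_of_sq ht (fun w => hCL _ _ (hCim 1 w)), hs, map_sub,
        hCL _ _ (hCim 1 z), sub_zero, hCx, hCx]
      simp only [LinearMap.smul_apply, LinearMap.comp_apply]
      module
    · obtain ⟨l, hl⟩ := hBL _ (hAim (B z))
      exact ⟨(μ - 1) * l, by simp [hl, smul_smul]⟩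
    · show (μ - 1) • B (A (B y)) ≠ 0
      rw [hy, hAv, hBz]
      exact smul_ne_zero (sub_ne_zero.2 hμ1) hu0
  replace h := h.resolve_left hq
  by_cases hr : 3 ≤ Module.finrank F K
  · obtain ⟨t, htG, ht⟩ := hCmem 1 one_ne_zero
    have hker : L ≤ LinearMap.ker (C 1) := fun z hz => hCL 1 z hz
    have hrng : Module.finrank F (LinearMap.range (C 1)) ≤ 2 := by
      classical
      have hle : LinearMap.range (C 1) ≤ Submodule.span F ({z₀, c 0} : Set V) := by
        rintro _ ⟨z, rfl⟩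
        obtain ⟨k, hk⟩ := hAW _ (hBim z)
        obtain ⟨l, hl⟩ := hBL _ (hAim z)
        obtain ⟨m, hm⟩ := hBL _ (hAim (B z))
        rw [hCx, hm, hl, hk, one_smul]
        exact Submodule.mem_span_pair.2 ⟨k, m - l, by module⟩
      exact (Submodule.finrank_mono hle).trans ((finrank_span_le_card _).trans (by
        rw [Set.toFinset_insert, Set.toFinset_singleton]; exact Finset.card_le_two))
    have hge : Module.finrank F K ≤ Module.finrank F (LinearMap.ker (C 1)) :=
      (finrank_kline hx).symm.le.trans (Submodule.finrank_mono hker)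
    refine hasTv_of_small htG ht (fun z => hCL 1 _ (hCim 1 z)) ⟨y, fun h0 => hz₀W ?_⟩ (by omega)
      (S.trans_le _ (by omega) (by omega))
    obtain ⟨l, hl⟩ := hBL _ (hAim y)
    rw [hCx, hy, hAv, hBz, hl, one_smul, sub_add, sub_eq_zero] at h0
    rw [h0]
    exact sub_mem (Submodule.smul_mem _ l (hcW ⟨0, rfl⟩)) (hcW ⟨0, rfl⟩)
  · replace h := h.resolve_left hr
    obtain ⟨a, haG, ha⟩ := hAmem 1
    have hrng : LinearMap.range A = L := by
      refine le_antisymm (by rintro _ ⟨z, rfl⟩; exact hAim z) fun z hz => ?_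
      obtain ⟨k, hk⟩ := mem_kline.1 hz
      obtain ⟨k₀, hk₀⟩ := mem_kline.1 hz₀L
      have : k₀ ≠ 0 := fun e => hz₀W (by rw [← hk₀, e, zero_smul]; exact zero_mem _)
      exact ⟨(k / k₀) • v, by
        rw [hAx, map_smul, hφv, smul_eq_mul, mul_one, ← hk₀, smul_smul, div_mul_cancel₀ _ this, hk]⟩
    have hrk := A.finrank_range_add_finrank_ker
    rw [← Module.finrank_mul_finrank F K V, hrng, finrank_kline hx] at hrk
    have h3 : 3 * Module.finrank F K ≤ Module.finrank F K * Module.finrank K V := by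
      rw [mul_comm 3]; exact Nat.mul_le_mul_left _ h
    refine hasTv_of_small haG (fun z => (ha z).trans (by rw [one_smul])) hAA
      ⟨v, by rw [hAv]; exact fun e => hz₀W (e ▸ zero_mem _)⟩ ?_ ?_
    · rw [hrng, finrank_kline hx]; have := S.prime.two_le; omega
    · rw [hrng, finrank_kline hx]; exact S.trans_top h

end CfsgLib.GeoExt
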