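import Cfsg.Agent.GeoExt.Reduce

/-!
Dimension four over the field of two elements.
-/

set_option autoImplicit false

namespace CfsgLib.GeoExt

variable {F V : Type*} [Field F] [AddCommGroup V] [Module F V]

/-- The vector with the bit pattern `v` on four given vectors. -/
def vec4 (e : Fin 4 → V) (v : ℕ) : V :=
  (if v.testBit 0 then e 0 else 0) + (if v.testBit 1 then e 1 else 0)
    + (if v.testBit 2 then e 2 else 0) + (if v.testBit 3 then e 3 else 0)

/-- Image of a bit pattern under a table of images. -/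
def tabAp (M : Fin 4 → ℕ) (v : ℕ) : ℕ :=
  (if v.testBit 0 then M 0 else 0) ^^^ (if v.testBit 1 then M 1 else 0)
    ^^^ (if v.testBit 2 then M 2 else 0) ^^^ (if v.testBit 3 then M 3 else 0)

theorem vec4_zero (e : Fin 4 → V) : vec4 e 0 = 0 := by simp [vec4]

theorem vec4_xor {e : Fin 4 → V} (h2 : ∀ z : V, z + z = 0) (a b : ℕ) :
    vec4 e (a ^^^ b) = vec4 e a + vec4 e b := by
  have key : ∀ (p q : Bool) (z : V),
      (if (p ^^ q) then z else 0) = (if p then z else 0) + (if q then z else 0) := by
    intro p q z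
    cases p <;> cases q <;> simp [h2]
  simp only [vec4, Nat.testBit_xor, key]
  abel

/-- `g` has the table `M` on the four vectors. -/
def Rep (e : Fin 4 → V) (g : V ≃ₗ[F] V) (M : Fin 4 → ℕ) : Prop :=
  ∀ i, g (e i) = vec4 e (M i)

theorem Rep.apply {e : Fin 4 → V} (h2 : ∀ z : V, z + z = 0) {g : V ≃ₗ[F] V} {M : Fin 4 → ℕ}
    (hg : Rep e g M) (v : ℕ) : g (vec4 e v) = vec4 e (tabAp M v) := by
  have key : ∀ (p : Bool) (i : Fin 4),
      g (if p then e i else 0) = vec4 e (if p then M i else 0) := by
    intro p i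
    cases p <;> simp [vec4_zero, hg i]
  rw [tabAp, vec4_xor h2, vec4_xor h2, vec4_xor h2, ← key, ← key, ← key, ← key, ← map_add,
    ← map_add, ← map_add]
  rfl

theorem Rep.mul {e : Fin 4 → V} (h2 : ∀ z : V, z + z = 0) {g h : V ≃ₗ[F] V} {M N : Fin 4 → ℕ}
    (hg : Rep e g M) (hh : Rep e h N) : Rep e (g * h) (fun i => tabAp M (N i)) := fun i => by
  show g (h (e i)) = _
  rw [hh i, hg.apply h2]

theorem vec4_ne_zero {e : Fin 4 → V} (he : LinearIndependent F e) {c : ℕ}
    (hc : ∃ i : Fin 4, c.testBit i) : vec4 e c ≠ 0 := by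
  intro h
  obtain ⟨i, hi⟩ := hc
  have := Fintype.linearIndependent_iff.1 he (fun j => if c.testBit j then 1 else 0)
    (by rw [Fin.sum_univ_four]; simpa [vec4, ite_smul] using h) i
  simp [hi] at this

theorem hasTv_of_table [Finite V] {G : Subgroup (V ≃ₗ[F] V)} {e : Fin 4 → V}
    (h2 : ∀ z : V, z + z = 0) (he : LinearIndependent F e)
    (hspan : ⊤ ≤ Submodule.span F (Set.range e)) {g : V ≃ₗ[F] V} (hg : g ∈ G) {M : Fin 4 → ℕ}
    (hM : Rep e g M) (c : ℕ) (hc : ∃ i : Fin 4, c.testBit i)
    (hrow : ∀ i : Fin 4, M i = 2 ^ (i : ℕ) ∨ M i = 2 ^ (i : ℕ) ^^^ c)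
    (hfix : tabAp M c = c) (hne : ∃ i : Fin 4, M i = 2 ^ (i : ℕ) ^^^ c) : HasTv G := by
  have hbasis : ∀ i : Fin 4, vec4 e (2 ^ (i : ℕ)) = e i := by
    intro i
    fin_cases i <;> simp [vec4, Nat.testBit, Nat.shiftRight_eq_div_pow]
  set D : V →ₗ[F] V := (g : V →ₗ[F] V) - LinearMap.id with hD
  have hDx : ∀ z, D z = g z - z := fun z => rfl
  refine hasTv_of_rank_one hg (M := D) (fun z => (add_sub_cancel z (g z)).symm)
    (vec4_ne_zero he hc) (fun z => ?_) (by rw [hDx, hM.apply h2, hfix, sub_self]) ?_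
  · have : ⊤ ≤ (Submodule.span F {vec4 e c}).comap D := by
      refine hspan.trans (Submodule.span_le.2 ?_)
      rintro _ ⟨i, rfl⟩
      show D (e i) ∈ Submodule.span F {vec4 e c}
      rw [hDx, hM i]
      rcases hrow i with h | h
      · rw [h, hbasis, sub_self]; exact zero_mem _
      · rw [h, vec4_xor h2, hbasis, add_sub_cancel_left]
        exact Submodule.mem_span_singleton_self _
    exact Submodule.mem_span_singleton.1 (this (Submodule.mem_top (x := z)))
  · obtain ⟨i, hi⟩ := hne
    exact ⟨e i, by rw [hDx, hM i, hi, vec4_xor h2, hbasis, add_sub_cancel_left]; exact vec4_ne_zero he hc⟩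

variable {K : Type*} [Field K] [Algebra F K] [Module K V] [IsScalarTower F K V] [Finite F]
  [Finite K] [Finite V] {G : Subgroup (V ≃ₗ[F] V)}

theorem Setup.hasTv_four (S : Setup F K V G) (hF : ∀ μ : F, μ = 0 ∨ μ = 1)
    (hr : Module.finrank F K = 2) (hm : Module.finrank K V = 2) : HasTv G := by
  classical
  haveI := Fintype.ofFinite F
  haveI := Fintype.ofFinite K
  haveI := Fintype.ofFinite V
  have hcF : Fintype.card F = 2 := by
    rw [← Finset.card_univ, show (Finset.univ : Finset F) = {0, 1} by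
      ext a; simpa using hF a]
    exact Finset.card_pair zero_ne_one
  have h11 : (1 : F) + 1 = 0 := (hF (1 + 1)).resolve_right (fun h => one_ne_zero (add_eq_right.1 h))
  have hneg : ∀ z : V, z + z = 0 := fun z => by
    rw [← one_smul F z, ← add_smul, h11, zero_smul]
  have hnegK : ∀ k : K, k + k = 0 := fun k => by
    rw [← one_smul F k, ← add_smul, h11, zero_smul]
  have hcK : Fintype.card K = 4 := by rw [Module.card_eq_pow_finrank (K := F), hcF, hr]; rfl
  have hrank : Module.finrank F V = 4 := by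
    rw [← Module.finrank_mul_finrank F K V, hr, hm]
  -- the scalar of order three
  obtain ⟨ω, hω0, hω1⟩ : ∃ ω : K, ω ≠ 0 ∧ ω ≠ 1 := by
    by_contra h
    push Not at h
    have : Fintype.card K ≤ 2 := by
      rw [← Finset.card_univ]
      exact (Finset.card_le_card (t := ({0, 1} : Finset K)) fun k _ => by
        by_cases hk : k = 0
        · simp [hk]
        · simp [h k hk]).trans Finset.card_le_two
    omega
  have hω3 : ω ^ 3 = 1 := by
    have := FiniteField.pow_card_sub_one_eq_one ω hω0
    rwa [hcK] at this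
  have hω2 : ω * ω = ω + 1 := by
    have h := (mul_eq_zero.1 (show (ω - 1) * (ω * ω + ω + 1) = 0 by
      linear_combination hω3)).resolve_left (sub_ne_zero.2 hω1)
    linear_combination h - hnegK ω - hnegK 1
  have hωF : ∀ s : F, algebraMap F K s ≠ ω := fun s h => by
    rcases hF s with rfl | rfl
    · exact hω0 (by rw [← h, map_zero])
    · exact hω1 (by rw [← h, map_one])
  have hsplit : ∀ k : K, ∃ s t : F, k = s • (1 : K) + t • ω := by
    have hli : LinearIndependent F ![(1 : K), ω] :=
      (LinearIndependent.pair_iff' one_ne_zero).2 fun a ha => hωF a (by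
        rw [← ha, Algebra.smul_def, mul_one])
    intro k
    have htop := hli.span_eq_top_of_card_eq_finrank (by rw [Fintype.card_fin, hr])
    have hk : k ∈ Submodule.span F ({(1 : K), ω} : Set K) := by
      rw [Matrix.range_cons, Matrix.range_cons, Matrix.range_empty] at htop
      simp only [Set.union_empty, Set.singleton_union] at htop
      rw [htop]; trivial
    obtain ⟨s, t, hst⟩ := Submodule.mem_span_pair.1 hk
    exact ⟨s, t, hst.symm⟩
  obtain ⟨x, hx⟩ := S.exists_vec
  obtain ⟨y, hy⟩ := S.exists_off x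
  have hxy : LinearIndependent K ![x, y] := (LinearIndependent.pair_iff' hx).2 fun a ha =>
    hy (ha ▸ smul_mem_span a x)
  set e : Fin 4 → V := ![x, ω • x, y, ω • y] with he'
  have hspan : ⊤ ≤ Submodule.span F (Set.range e) := by
    intro z _
    have htop := hxy.span_eq_top_of_card_eq_finrank (by rw [Fintype.card_fin, hm])
    rw [Matrix.range_cons, Matrix.range_cons, Matrix.range_empty] at htop
    simp only [Set.union_empty, Set.singleton_union] at htop
    obtain ⟨a, b, hab⟩ := Submodule.mem_span_pair.1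
      (show z ∈ Submodule.span K ({x, y} : Set V) by rw [htop]; trivial)
    obtain ⟨s, t, rfl⟩ := hsplit a
    obtain ⟨s', t', rfl⟩ := hsplit b
    rw [← hab, add_smul, add_smul, smul_assoc, smul_assoc, smul_assoc, smul_assoc, one_smul,
      one_smul]
    have hmem : ∀ i, e i ∈ Submodule.span F (Set.range e) := fun i => Submodule.subset_span ⟨i, rfl⟩
    exact add_mem (add_mem (Submodule.smul_mem _ _ (hmem 0)) (Submodule.smul_mem _ _ (hmem 1)))
      (add_mem (Submodule.smul_mem _ _ (hmem 2)) (Submodule.smul_mem _ _ (hmem 3)))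
  have hli : LinearIndependent F e :=
    linearIndependent_of_top_le_span_of_card_eq_finrank hspan (by rw [Fintype.card_fin, hrank])
  have hωω : ∀ z : V, ω • ω • z = ω • z + z := fun z => by rw [smul_smul, hω2, add_smul, one_smul]
  -- a swap of two basis vectors
  obtain ⟨g, hg, hgi⟩ := S.trans_le 2 (by omega) (by omega) ![x, ω • x] ![x, y]
    ((LinearIndependent.pair_iff' hx).2 fun a ha => hωF a (smul_left_injective K hx (show algebraMap F K a • x = ω • x by
      rw [algebraMap_smul]; exact ha)))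
    ((LinearIndependent.pair_iff' hx).2 fun a ha => hy (by
      rw [← ha, ← algebraMap_smul K]; exact smul_mem_span _ x))
  have hgx : g x = x := hgi 0
  have hgω : g (ω • x) = y := hgi 1
  have hw : g.symm (ω • x) ∉ Submodule.span K {x} := fun h => by
    obtain ⟨k, hk⟩ := Submodule.mem_span_singleton.1 h
    obtain ⟨s, t, rfl⟩ := hsplit k
    have h1 := congrArg g hk
    rw [g.apply_symm_apply, add_smul, smul_assoc, smul_assoc, one_smul, map_add, map_smul,
      map_smul, hgx, hgω] at h1
    have h0 := Fintype.linearIndependent_iff.1 hli ![s, -1, t, 0]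
      (by rw [Fin.sum_univ_four]; simp [he', ← h1]) 1
    simp at h0
  have hxw : LinearIndependent K ![x, g.symm (ω • x)] := (LinearIndependent.pair_iff' hx).2
    fun a ha => hw (ha ▸ smul_mem_span a x)
  have hc2 : Fintype.card (Fin 2) = Module.finrank K V := by rw [Fintype.card_fin, hm]
  set f := (basisOfLinearIndependentOfCardEqFinrank hxy hc2).equiv
    (basisOfLinearIndependentOfCardEqFinrank hxw hc2) (Equiv.refl _) with hf'
  have hfi : ∀ i, f (![x, y] i) = ![x, g.symm (ω • x)] i := fun i => by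
    have := (basisOfLinearIndependentOfCardEqFinrank hxy hc2).equiv_apply i
      (basisOfLinearIndependentOfCardEqFinrank hxw hc2) (Equiv.refl _)
    simpa only [coe_basisOfLinearIndependentOfCardEqFinrank, Equiv.refl_apply] using this
  have hdet : ∀ f : V ≃ₗ[K] V, f.restrictScalars F ∈ G := fun f => S.klin f
    ((hF _).resolve_left (f.restrictScalars F).isUnit_det'.ne_zero)
  obtain ⟨g', hg', hg0, hg1, hg2⟩ : ∃ g' ∈ G, g' x = x ∧ g' (ω • x) = y ∧ g' y = ω • x := by
    refine ⟨g * f.restrictScalars F, mul_mem hg (hdet f), ?_, ?_, ?_⟩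
    · show g (f x) = x
      rw [show f x = x from hfi 0, hgx]
    · show g (f (ω • x)) = y
      rw [map_smul, show f x = x from hfi 0, hgω]
    · show g (f y) = ω • x
      rw [show f y = g.symm (ω • x) from hfi 1, g.apply_symm_apply]
  -- codes
  have hv : ∀ v, v ∈ ({1, 2, 3, 4, 5, 8, 10, 12} : Finset ℕ) → vec4 e v =
      (if v = 1 then x else if v = 2 then ω • x else if v = 3 then x + ω • x
        else if v = 4 then y else if v = 5 then x + y else if v = 8 then ω • y
        else if v = 10 then ω • x + ω • y else y + ω • y) := by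
    intro v hv
    fin_cases hv <;> simp [vec4, he', Nat.testBit, Nat.shiftRight_eq_div_pow]
  have hinj : ∀ a b : Fin 16, vec4 e a = vec4 e b → a = b := by
    intro a b h
    by_contra hne
    refine vec4_ne_zero hli (c := (a : ℕ) ^^^ b) ?_ (by rw [vec4_xor hneg, h, hneg])
    revert hne; clear h
    revert a b; decide
  obtain ⟨c, hc⟩ : ∃ c : Fin 16, vec4 e c = g' (ω • y) :=
    ((Fintype.bijective_iff_injective_and_card (fun a : Fin 16 => vec4 e a)).2
      ⟨hinj, by rw [Fintype.card_fin, Module.card_eq_pow_finrank (K := F) (V := V), hcF, hrank]; rfl⟩).2 _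
  have hG : Rep e g' ![1, 4, 2, c] := by
    intro i
    fin_cases i
    · show g' x = vec4 e 1; rw [hg0, hv 1 (by decide)]; rfl
    · show g' (ω • x) = vec4 e 4; rw [hg1, hv 4 (by decide)]; rfl
    · show g' y = vec4 e 2; rw [hg2, hv 2 (by decide)]; rfl
    · exact hc.symm
  have hc8 : 8 ≤ (c : ℕ) := by
    by_contra hlt
    have h1 : vec4 e (tabAp ![1, 4, 2, c] (tabAp ![1, 4, 2, 0] c)) = vec4 e c := congrArg (vec4 e)
      (by revert hlt; clear hc hG; revert c; decide)
    rw [← hG.apply hneg, hc] at h1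
    have h8 := g'.injective h1
    rw [show ω • y = vec4 e 8 by rw [hv 8 (by decide)]; rfl] at h8
    refine absurd (hinj ⟨tabAp ![1, 4, 2, 0] c, by revert hlt; clear hc hG h8 h1; revert c; decide⟩
      (8 : Fin 16) h8) ?_
    rw [Fin.ext_iff]
    revert hlt; clear hc hG h8 h1; revert c; decide
  obtain ⟨φ, hφ, hφy⟩ := sep hy
  obtain ⟨f₁, hf₁, h1⟩ := S.tv_mem (v := x) (hφ x (Submodule.mem_span_singleton_self _))
  have hT : Rep e (f₁.restrictScalars F) ![1, 2, 5, 10] := by
    have hx' : f₁ x = x := by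
      rw [h1, hφ x (Submodule.mem_span_singleton_self _), zero_smul, add_zero]
    have hy' : f₁ y = x + y := by rw [h1, hφy, one_smul, add_comm]
    intro i
    fin_cases i
    · show f₁ x = vec4 e 1; rw [hx', hv 1 (by decide)]; rfl
    · show f₁ (ω • x) = vec4 e 2; rw [map_smul, hx', hv 2 (by decide)]; rfl
    · show f₁ y = vec4 e 5; rw [hy', hv 5 (by decide)]; rfl
    · show f₁ (ω • y) = vec4 e 10; rw [map_smul, hy', smul_add, hv 10 (by decide)]; rfl
  have hxy' : x ∉ Submodule.span K {y} := fun h => by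
    obtain ⟨k, hk⟩ := Submodule.mem_span_singleton.1 h
    have hk0 : k ≠ 0 := fun h0 => hx (by rw [← hk, h0, zero_smul])
    exact hy (Submodule.mem_span_singleton.2 ⟨k⁻¹, by rw [← hk, smul_smul, inv_mul_cancel₀ hk0, one_smul]⟩)
  obtain ⟨φ₂, hφ₂, hφ₂x⟩ := sep hxy'
  obtain ⟨f₂, hf₂, h2⟩ := S.tv_mem (v := y) (hφ₂ y (Submodule.mem_span_singleton_self _))
  have hS : Rep e (f₂.restrictScalars F) ![5, 10, 4, 8] := by
    have hy' : f₂ y = y := by
      rw [h2, hφ₂ y (Submodule.mem_span_singleton_self _), zero_smul, add_zero]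
    have hx' : f₂ x = x + y := by rw [h2, hφ₂x, one_smul]
    intro i
    fin_cases i
    · show f₂ x = vec4 e 5; rw [hx', hv 5 (by decide)]; rfl
    · show f₂ (ω • x) = vec4 e 10; rw [map_smul, hx', smul_add, hv 10 (by decide)]; rfl
    · show f₂ y = vec4 e 4; rw [hy', hv 4 (by decide)]; rfl
    · show f₂ (ω • y) = vec4 e 8; rw [map_smul, hy', hv 8 (by decide)]; rfl
  have hZ : Rep e ((LinearEquiv.smulOfNeZero K V ω hω0).restrictScalars F) ![2, 3, 8, 12] := by
    intro i
    fin_cases i
    · show ω • x = vec4 e 2; rw [hv 2 (by decide)]; rfl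
    · show ω • ω • x = vec4 e 3; rw [hωω, hv 3 (by decide), add_comm]; rfl
    · show ω • y = vec4 e 8; rw [hv 8 (by decide)]; rfl
    · show ω • ω • y = vec4 e 12; rw [hωω, hv 12 (by decide), add_comm]; rfl
  have hZG := hdet (LinearEquiv.smulOfNeZero K V ω hω0)
  fin_cases c <;> first | exact absurd hc8 (by decide) | skip
  · exact hasTv_of_table hneg hli hspan hg' hG 6 (by decide) (by decide) (by decide) (by decide)
  · exact hasTv_of_table hneg hli hspan
      (mul_mem (mul_mem (mul_mem (mul_mem (mul_mem hg' hf₁) hZG) hg') hf₂) hf₁)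
      (((((hG.mul hneg hT).mul hneg hZ).mul hneg hG).mul hneg hS).mul hneg hT)
      5 (by decide) (by decide) (by decide) (by decide)
  · exact hasTv_of_table hneg hli hspan (mul_mem hg' hg') (hG.mul hneg hG)
      6 (by decide) (by decide) (by decide) (by decide)
  · exact hasTv_of_table hneg hli hspan (mul_mem hg' hg') (hG.mul hneg hG)
      6 (by decide) (by decide) (by decide) (by decide)
  · exact hasTv_of_table hneg hli hspan (mul_mem hg' hg') (hG.mul hneg hG)
      6 (by decide) (by decide) (by decide) (by decide)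
  · exact hasTv_of_table hneg hli hspan (mul_mem hg' hg') (hG.mul hneg hG)
      6 (by decide) (by decide) (by decide) (by decide)
  · exact hasTv_of_table hneg hli hspan hg' hG 6 (by decide) (by decide) (by decide) (by decide)
  · exact hasTv_of_table hneg hli hspan
      (mul_mem (mul_mem (mul_mem (mul_mem (mul_mem (mul_mem (mul_mem hg' hf₁) hf₂) hZG) hg') hf₁) hf₂) hZG)
      (((((((hG.mul hneg hT).mul hneg hS).mul hneg hZ).mul hneg hG).mul hneg hT).mul hneg hS).mul hneg hZ)
      14 (by decide) (by decide) (by decide) (by decide)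

theorem Setup.hasTv (S : Setup F K V G) : HasTv G := by
  by_cases h : (∃ μ : F, μ ≠ 0 ∧ μ ≠ 1) ∨ 3 ≤ Module.finrank F K ∨ 3 ≤ Module.finrank K V
  · exact S.hasTv_big h
  push Not at h
  obtain ⟨h1, h2, h3⟩ := h
  have := S.two_le
  have := S.prime.two_le
  exact S.hasTv_four (fun μ => or_iff_not_imp_left.2 (h1 μ)) (by omega) (by omega)

end CfsgLib.GeoExt
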