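import Cfsg.Agent.GeoExt.Basic

/-!
Transitivity on independent tuples.
-/

set_option autoImplicit false

namespace CfsgLib.GeoExt

variable {F K V : Type*} [Field F] [Field K] [Algebra F K] [AddCommGroup V] [Module F V]
  [Module K V] [IsScalarTower F K V] [Finite F] [Finite K] [Finite V]

variable {G : Subgroup (V ≃ₗ[F] V)}

/-- Transitivity on independent `j`-tuples. -/
def Trans (G : Subgroup (V ≃ₗ[F] V)) (j : ℕ) : Prop :=
  ∀ a b : Fin j → V, LinearIndependent F a → LinearIndependent F b →
    ∃ g ∈ G, ∀ i, g (a i) = b i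

/-- The stabiliser of the tuple is transitive off its span. -/
def Stab (G : Subgroup (V ≃ₗ[F] V)) {j : ℕ} (a : Fin j → V) : Prop :=
  ∀ y z : V, y ∉ Submodule.span F (Set.range a) → z ∉ Submodule.span F (Set.range a) →
    ∃ g ∈ G, (∀ i, g (a i) = a i) ∧ g y = z

theorem notMem_span_map {j : ℕ} {a : Fin j → V} {g : V ≃ₗ[F] V} {c : Fin j → V}
    (h : ∀ i, g (a i) = c i) {y : V} (hy : y ∉ Submodule.span F (Set.range a)) :
    g y ∉ Submodule.span F (Set.range c) := fun hmem => hy (by
  have e : Set.range c = (g : V →ₗ[F] V) '' Set.range a := by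
    rw [← Set.range_comp]; exact congrArg Set.range (funext fun i => (h i).symm)
  rw [e, Submodule.span_image] at hmem
  obtain ⟨z, hz, hzy⟩ := hmem
  rwa [g.injective hzy] at hz)

theorem trans_succ {j : ℕ} (h : Trans G j) {c : Fin j → V} (hc : LinearIndependent F c)
    (hst : Stab G c) : Trans G (j + 1) := by
  intro a b ha hb
  obtain ⟨a, y, rfl⟩ : ∃ a' y, a = Fin.snoc (α := fun _ => V) a' y :=
    ⟨Fin.init a, a (Fin.last j), (Fin.snoc_init_self a).symm⟩
  obtain ⟨b, z, rfl⟩ : ∃ b' z, b = Fin.snoc (α := fun _ => V) b' z :=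
    ⟨Fin.init b, b (Fin.last j), (Fin.snoc_init_self b).symm⟩
  rw [linearIndependent_finSnoc] at ha hb
  obtain ⟨g, hg, hgi⟩ := h a c ha.1 hc
  obtain ⟨g', hg', hgi'⟩ := h b c hb.1 hc
  obtain ⟨k, hk, hki, hkl⟩ := hst (g y) (g' z) (notMem_span_map hgi ha.2) (notMem_span_map hgi' hb.2)
  refine ⟨g'⁻¹ * k * g, mul_mem (mul_mem (inv_mem hg') hk) hg, fun i => ?_⟩
  show g'.symm (k (g (Fin.snoc (α := fun _ => V) a y i))) = Fin.snoc (α := fun _ => V) b z i
  induction i using Fin.lastCases with
  | last => rw [Fin.snoc_last, Fin.snoc_last, hkl, g'.symm_apply_apply]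
  | cast i => rw [Fin.snoc_castSucc, Fin.snoc_castSucc, hgi, hki, ← hgi' i, g'.symm_apply_apply]

variable (K) in
/-- The common part of the lines through a set. -/
def hull (G : Subgroup (V ≃ₗ[F] V)) (X : Set V) : Submodule F V :=
  sInf {W | IsLine K G W ∧ X ⊆ W}

omit [Finite F] [Finite K] [Finite V] in
theorem hull_le {X : Set V} {W : Submodule F V} (h : IsLine K G W) (hX : X ⊆ W) :
    hull K G X ≤ W := sInf_le ⟨h, hX⟩

omit [Finite F] [Finite K] [Finite V] in
theorem subset_hull (X : Set V) : X ⊆ hull K G X := fun x hx =>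
  Submodule.mem_sInf.2 fun _ h => h.2 hx

omit [Finite F] [Finite K] [Finite V] in
theorem hull_mono {X Y : Set V} (h : Y ⊆ hull K G X) : hull K G Y ≤ hull K G X :=
  le_sInf fun _ hW => hull_le hW.1 (h.trans (hull_le hW.1 hW.2))

omit [Finite F] [Finite K] [Finite V] in
theorem hull_map {X : Set V} {g : V ≃ₗ[F] V} (hg : g ∈ G) {z : V} (hz : z ∈ hull K G X) :
    g z ∈ hull K G (g '' X) := by
  refine Submodule.mem_sInf.2 fun W hW => ?_
  obtain ⟨y, hy, hyz⟩ : z ∈ W.map ((g⁻¹ : V ≃ₗ[F] V) : V →ₗ[F] V) :=
    Submodule.mem_sInf.1 hz _ ⟨hW.1.map (inv_mem hg),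
      fun x hx => ⟨g x, hW.2 ⟨x, hx, rfl⟩, g.symm_apply_apply x⟩⟩
  have : g z = y := by rw [← hyz]; exact g.apply_symm_apply y
  rwa [this]

theorem hull_image {X : Set V} {g : V ≃ₗ[F] V} (hg : g ∈ G) :
    hull K G (g '' X) = (hull K G X).map (g : V →ₗ[F] V) := by
  refine le_antisymm ?_ ?_
  · intro z hz
    refine ⟨g.symm z, ?_, g.apply_symm_apply z⟩
    have e := hull_map (inv_mem hg) hz
    rw [Set.image_image, show (fun x => (g⁻¹ : V ≃ₗ[F] V) (g x)) = id from
      funext g.symm_apply_apply, Set.image_id] at e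
    exact e
  · rintro _ ⟨z, hz, rfl⟩
    exact hull_map hg hz

theorem hull_tuple {j : ℕ} {a b : Fin j → V} {g : V ≃ₗ[F] V} (hg : g ∈ G)
    (h : ∀ i, g (a i) = b i) :
    hull K G (Set.range b) = (hull K G (Set.range a)).map (g : V →ₗ[F] V) := by
  rw [← hull_image hg, ← Set.range_comp]
  exact congrArg (fun f => hull K G (Set.range f)) (funext fun i => (h i).symm)

theorem finrank_hull_eq {j : ℕ} (hP : Trans G j) {a b : Fin j → V} (ha : LinearIndependent F a)
    (hb : LinearIndependent F b) :
    Module.finrank F (hull K G (Set.range a)) = Module.finrank F (hull K G (Set.range b)) := by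
  obtain ⟨g, hg, h⟩ := hP a b ha hb
  rw [hull_tuple hg h, LinearEquiv.finrank_map_eq]

theorem hull_eq_of_subset {j : ℕ} (hP : Trans G j) {a b : Fin j → V} (ha : LinearIndependent F a)
    (hb : LinearIndependent F b) (hsub : Set.range b ⊆ hull K G (Set.range a)) :
    hull K G (Set.range b) = hull K G (Set.range a) :=
  Submodule.eq_of_le_of_finrank_eq (hull_mono hsub) (finrank_hull_eq hP hb ha)

variable (S : Setup F K V G)
include S

theorem Setup.exists_tuple {j : ℕ} (hj : j ≤ Module.finrank F K) {x : V} (hx : x ≠ 0) :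
    ∃ c : Fin j → V, LinearIndependent F c ∧ ∀ i, c i ∈ kline F K x := by
  refine ⟨fun i => Module.finBasis F K (Fin.castLE hj i) • x, ?_, fun i => smul_mem_span _ x⟩
  have hinj : LinearMap.ker ((LinearMap.toSpanSingleton K V x).restrictScalars F) = ⊥ :=
    LinearMap.ker_eq_bot.2 fun a b h => smul_left_injective K hx h
  exact (((Module.finBasis F K).linearIndependent).comp (Fin.castLE hj)
    (Fin.castLE_injective hj)).map' _ hinj

theorem Setup.exists_vec : ∃ x : V, x ≠ 0 := by
  haveI : Nontrivial V := Module.nontrivial_of_finrank_pos (R := K) (by have := S.two_le; omega)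
  exact exists_ne 0

theorem Setup.trans_one : Trans G 1 := by
  intro a b ha hb
  obtain ⟨f, hf, hfx⟩ := S.exists_move (ha.ne_zero 0) (hb.ne_zero 0)
  exact ⟨_, hf, fun i => by rw [Subsingleton.elim i 0]; exact hfx⟩

theorem Setup.hull_eq {j : ℕ} (hj1 : 1 ≤ j) (hj : j < Module.finrank F K) (hP : Trans G j)
    {a : Fin j → V} (ha : LinearIndependent F a) :
    hull K G (Set.range a) = Submodule.span F (Set.range a) := by
  obtain ⟨x, hx⟩ := S.exists_vec
  obtain ⟨c, hc, hcx⟩ := S.exists_tuple hj.le hx
  have hcL : hull K G (Set.range c) ≤ kline F K x :=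
    hull_le (isLine_kline hx) (Set.range_subset_iff.2 hcx)
  suffices ∃ b : Fin j → V, LinearIndependent F b ∧
      hull K G (Set.range b) ≤ Submodule.span F (Set.range b) by
    obtain ⟨b, hb, hle⟩ := this
    refine (Submodule.eq_of_le_of_finrank_le (Submodule.span_le.2 (subset_hull _)) ?_).symm
    rw [finrank_hull_eq hP ha hb, finrank_span_eq_card ha, ← finrank_span_eq_card hb]
    exact Submodule.finrank_mono hle
  obtain ⟨i, rfl⟩ : ∃ i, j = i + 1 := ⟨j - 1, by omega⟩
  rcases Nat.eq_zero_or_pos i with rfl | hi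
  · -- a single vector
    refine ⟨fun _ => x, (linearIndependent_unique_iff (v := fun _ : Fin 1 => x)).2 hx, ?_⟩
    intro z hz
    rw [Set.range_const] at hz ⊢
    have hxL : ({x} : Set V) ⊆ kline F K x :=
      Set.singleton_subset_iff.2 (Submodule.mem_span_singleton_self x)
    obtain ⟨k, rfl⟩ := mem_kline.1 (hull_le (isLine_kline hx) hxL hz)
    by_contra hno
    have hk : ∀ l : F, algebraMap F K l ≠ k := fun l e => hno (by
      rw [← e, algebraMap_smul]; exact Submodule.smul_mem _ _ (Submodule.subset_span rfl))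
    have hk0 : k ≠ 0 := fun e => hk 0 (by rw [map_zero, e])
    set U := (hull K G ({x} : Set V)).comap ((LinearMap.toSpanSingleton K V x).restrictScalars F)
    obtain ⟨f, hf, hfx⟩ := S.exists_move hx (smul_ne_zero hk0 hx)
    have hU : ∀ l : K, l ∈ U := eq_univ_of_stable S.prime U hk
      (show (1 : K) • x ∈ hull K G {x} by rw [one_smul]; exact subset_hull _ rfl)
      (fun l hl => by
        show (k * l) • x ∈ hull K G {x}
        have e := hull_map hf (show l • x ∈ hull K G {x} from hl)
        have e' : f.restrictScalars F (l • x) = (k * l) • x := by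
          show f (l • x) = _
          rw [map_smul, hfx, smul_smul, mul_comm]
        rw [e', Set.image_singleton] at e
        refine hull_mono ?_ e
        rw [Set.singleton_subset_iff]
        show f x ∈ hull K G {x}
        rw [hfx]; exact hz)
    have hline : ∀ W, IsLine K G W → x ∈ W → kline F K x = W := fun W hW hxW =>
      (isLine_kline hx).eq_of_le hW fun z hz => by
        obtain ⟨l, rfl⟩ := mem_kline.1 hz
        exact hull_le hW (Set.singleton_subset_iff.2 hxW) (hU l)
    obtain ⟨g, hg, x₀, k₀, hbad⟩ := S.bad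
    have hx₀ : x₀ ≠ 0 := fun e => hbad (by rw [e, smul_zero, map_zero]; exact zero_mem _)
    obtain ⟨f', hf', hfx'⟩ := S.exists_move hx (g.map_ne_zero_iff.2 hx₀)
    have hW := ((isLine_kline hx₀).map hg).map (inv_mem hf') (K := K)
    have e := hline _ hW ⟨g x₀, ⟨x₀, Submodule.mem_span_singleton_self x₀, rfl⟩, by
      show f'.symm (g x₀) = x
      rw [← hfx', f'.symm_apply_apply]⟩
    have hmem : f'.symm (g (k₀ • x₀)) ∈ kline F K x := by
      rw [e]; exact ⟨g (k₀ • x₀), ⟨k₀ • x₀, smul_mem_span k₀ x₀, rfl⟩, rfl⟩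
    obtain ⟨l, hl⟩ := mem_kline.1 hmem
    refine hbad (Submodule.mem_span_singleton.2 ⟨l, ?_⟩)
    rw [← hfx', ← map_smul, hl, f'.apply_symm_apply]
  · -- one vector outside the line
    obtain ⟨y, hy⟩ := S.exists_off x
    set c₀ : Fin i → V := fun t => c t.castSucc with hc₀
    have hc₀i : LinearIndependent F c₀ := hc.comp _ (Fin.castSucc_injective _)
    have hc₀L : Submodule.span F (Set.range c₀) ≤ kline F K x :=
      Submodule.span_le.2 (Set.range_subset_iff.2 fun t => hcx _)
    have tup : ∀ z, z ∉ kline F K x →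
        LinearIndependent F (Fin.snoc (α := fun _ => V) c₀ z) := fun z hz =>
      linearIndependent_finSnoc.2 ⟨hc₀i, fun h => hz (hc₀L h)⟩
    set b : Fin (i + 1) → V := Fin.snoc (α := fun _ => V) c₀ y with hb
    have hbi : LinearIndependent F b := tup y hy
    set D := hull K G (Set.range b) with hD
    have hc₀D : ∀ t, c₀ t ∈ D := fun t => subset_hull _ ⟨t.castSucc, by rw [hb, Fin.snoc_castSucc]⟩
    have hyD : y ∈ D := subset_hull _ ⟨Fin.last i, by rw [hb, Fin.snoc_last]⟩
    have hdim : Module.finrank F D ≤ Module.finrank F K := by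
      rw [hD, finrank_hull_eq hP hbi hc, ← finrank_kline (F := F) (K := K) hx]
      exact Submodule.finrank_mono hcL
    have hnotsup : ¬ kline F K x ≤ D := fun hle => by
      have e : kline F K x = D :=
        Submodule.eq_of_le_of_finrank_le hle (by rwa [finrank_kline hx])
      exact hy (show y ∈ kline F K x from e ▸ hyD)
    have hinL : ∀ e ∈ D, e ∈ kline F K x → e ∈ Submodule.span F (Set.range c₀) := by
      intro e he heL
      by_contra hno
      have hei : LinearIndependent F (Fin.snoc (α := fun _ => V) c₀ e) :=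
        linearIndependent_finSnoc.2 ⟨hc₀i, hno⟩
      have heq := hull_eq_of_subset (K := K) hP hbi hei (by
        rintro _ ⟨t, rfl⟩
        induction t using Fin.lastCases with
        | last => rw [Fin.snoc_last]; exact he
        | cast t => rw [Fin.snoc_castSucc]; exact hc₀D t)
      have hsub : Set.range (Fin.snoc (α := fun _ => V) c₀ e) ⊆ (kline F K x : Set V) := by
        rintro _ ⟨t, rfl⟩
        induction t using Fin.lastCases with
        | last => rw [Fin.snoc_last]; exact heL
        | cast t => rw [Fin.snoc_castSucc]; exact hcx _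
      have hyD' : y ∈ hull K G (Set.range (Fin.snoc (α := fun _ => V) c₀ e)) := by
        rw [heq]; exact hyD
      exact hy (show y ∈ kline F K x from hull_le (isLine_kline hx) hsub hyD')
    have hfixD : ∀ f : V ≃ₗ[K] V, f.restrictScalars F ∈ G → (∀ t, f (c₀ t) = c₀ t) →
        ∀ p q, p ∈ D → q ∈ D → p ∉ kline F K x → q ∉ kline F K x → f p = q →
        ∀ z ∈ D, f z ∈ D := by
      intro f hf hfc p q hp hq hpL hqL hpq z hz
      have hsub : ∀ w ∈ D, Set.range (Fin.snoc (α := fun _ => V) c₀ w) ⊆ D := by
        rintro w hw _ ⟨t, rfl⟩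
        induction t using Fin.lastCases with
        | last => rw [Fin.snoc_last]; exact hw
        | cast t => rw [Fin.snoc_castSucc]; exact hc₀D t
      have e₁ := hull_eq_of_subset (K := K) hP hbi (tup p hpL) (hsub p hp)
      have e₂ := hull_eq_of_subset (K := K) hP hbi (tup q hqL) (hsub q hq)
      have e := hull_tuple (K := K) hf (a := Fin.snoc (α := fun _ => V) c₀ p)
        (b := Fin.snoc (α := fun _ => V) c₀ q) fun t => by
        induction t using Fin.lastCases with
        | last => rw [Fin.snoc_last, Fin.snoc_last]; exact hpq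
        | cast t => rw [Fin.snoc_castSucc, Fin.snoc_castSucc]; exact hfc t
      rw [e₁, e₂] at e
      rw [hD, e]
      exact ⟨z, hz, rfl⟩
    -- the hull is in the plane
    have hplane : ∀ z ∈ D, z ∈ Submodule.span K ({x, y} : Set V) := by
      intro z hz
      by_contra hno
      obtain ⟨φ, hφ, hφz⟩ := sep hno
      refine hnotsup fun w hw => ?_
      obtain ⟨l, rfl⟩ := mem_kline.1 hw
      have hx0 : φ x = 0 := hφ x (Submodule.subset_span (by simp))
      obtain ⟨f, hf, hfz⟩ := S.tv_mem (show φ (l • x) = 0 by rw [map_smul, hx0, smul_zero])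
      have hfy : f y = y := by rw [hfz, hφ y (Submodule.subset_span (by simp)), zero_smul, add_zero]
      have hfc : ∀ t, f (c₀ t) = c₀ t := fun t => by
        obtain ⟨l', hl'⟩ := mem_kline.1 (hcx t.castSucc)
        show f (c t.castSucc) = c t.castSucc
        rw [hfz, ← hl', map_smul, hx0, smul_zero, zero_smul, add_zero]
      have := sub_mem (hfixD f hf hfc y y hyD hyD hy hy hfy z hz) hz
      rwa [hfz, hφz, one_smul, add_sub_cancel_left] at this
    obtain ⟨ψ, hψ, hψy⟩ := sep hy
    have hψL : ∀ w ∈ kline F K x, ψ w = 0 := fun w hw => hψ w hw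
    have hdec : ∀ z ∈ D, z - ψ z • y ∈ kline F K x := by
      intro z hz
      obtain ⟨a', b', rfl⟩ := Submodule.mem_span_pair.1 (hplane z hz)
      rw [map_add, map_smul, map_smul, hψ x (Submodule.mem_span_singleton_self x), hψy,
        smul_zero, zero_add, smul_eq_mul, mul_one, add_sub_cancel_right]
      exact smul_mem_span a' x
    refine ⟨b, hbi, fun z hz => ?_⟩
    by_cases hrat : ∀ w ∈ D, ∃ l : F, algebraMap F K l = ψ w
    · obtain ⟨l, hl⟩ := hrat z hz
      have h1 : z - ψ z • y ∈ D := by
        rw [← hl, algebraMap_smul]; exact sub_mem hz (D.smul_mem l hyD)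
      have h2 : Submodule.span F (Set.range c₀) ≤ Submodule.span F (Set.range b) :=
        Submodule.span_mono (by rintro _ ⟨t, rfl⟩; exact ⟨t.castSucc, by rw [hb, Fin.snoc_castSucc]⟩)
      have e : z = (z - ψ z • y) + ψ z • y := (sub_add_cancel _ _).symm
      rw [e]
      refine add_mem (h2 (hinL _ h1 (hdec z hz))) ?_
      rw [← hl, algebraMap_smul]
      exact Submodule.smul_mem _ _ (Submodule.subset_span ⟨Fin.last i, by rw [hb, Fin.snoc_last]⟩)
    · exfalso
      push Not at hrat
      obtain ⟨w, hwD, hw⟩ := hrat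
      obtain ⟨l, l', hl, hl', hnorm, hirr⟩ := exists_norm_pair (1 : K) (ψ w) (fun d e => hw d (by
        rw [← e, Algebra.smul_def, mul_one])) one_ne_zero
      set p := w + l • y with hp
      set q := w + l' • y with hq
      have hψp : ψ p = ψ w + l • (1 : K) := by
        rw [hp, map_add, LinearMap.map_smul_of_tower, hψy]
      have hψq : ψ q = ψ w + l' • (1 : K) := by
        rw [hq, map_add, LinearMap.map_smul_of_tower, hψy]
      obtain ⟨f, hf, hfz⟩ := S.diag_mem ((ψ p)⁻¹ • ψ) (q - p) (by
        rw [LinearMap.smul_apply, map_sub, smul_eq_mul, mul_sub,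
          inv_mul_cancel₀ (by rw [hψp]; exact hl), add_sub_cancel, mul_comm, ← div_eq_mul_inv,
          hψp, hψq]
        exact hnorm)
      have hpD : p ∈ D := add_mem hwD (D.smul_mem _ hyD)
      have hqD : q ∈ D := add_mem hwD (D.smul_mem _ hyD)
      have hpL : p ∉ kline F K x := fun h => hl (by rw [← hψp]; exact hψL p h)
      have hqL : q ∉ kline F K x := fun h => hl' (by rw [← hψq]; exact hψL q h)
      have hfp : f p = q := by
        rw [hfz, LinearMap.smul_apply, smul_eq_mul, inv_mul_cancel₀ (by rw [hψp]; exact hl),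
          one_smul, add_sub_cancel]
      have hfc : ∀ t, f (c₀ t) = c₀ t := fun t => by
        rw [hfz, LinearMap.smul_apply, hψL _ (hcx _), smul_zero, zero_smul, add_zero]
      set B := D.map (ψ.restrictScalars F)
      have hB : ∀ k : K, k ∈ B := eq_univ_of_stable S.prime B hirr ⟨y, hyD, hψy⟩ (by
        rintro _ ⟨e, he, rfl⟩
        refine ⟨f e, hfixD f hf hfc p q hpD hqD hpL hqL hfp e he, ?_⟩
        show ψ (f e) = _ * ψ e
        rw [hfz, map_add, map_smul, map_sub, LinearMap.smul_apply, smul_eq_mul, smul_eq_mul,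
          ← hψp, ← hψq]
        have : ψ p ≠ 0 := by rw [hψp]; exact hl
        field_simp
        ring)
      -- too large
      let t₀ : Fin i := ⟨0, hi⟩
      have h1 : Module.finrank F K ≤ Module.finrank F B := by
        rw [← finrank_top F K]; exact Submodule.finrank_mono fun k _ => hB k
      have h2 : Module.finrank F B < Module.finrank F D := by
        have hr := LinearMap.finrank_range_add_finrank_ker ((ψ.restrictScalars F).domRestrict D)
        rw [LinearMap.range_domRestrict] at hr
        change Module.finrank F B + _ = _ at hr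
        have hker : 0 < Module.finrank F
            (LinearMap.ker ((ψ.restrictScalars F).domRestrict D)) :=
          Module.finrank_pos_iff_exists_ne_zero.2 ⟨⟨⟨c₀ t₀, hc₀D t₀⟩, hψL _ (hcx _)⟩,
            fun e => hc₀i.ne_zero t₀ (Subtype.ext_iff.1 (Subtype.ext_iff.1 e))⟩
        omega
      omega

/-- The stabiliser of a proper part of a line is transitive off its span. -/
theorem Setup.stab_lt {j : ℕ} (hj1 : 1 ≤ j) (hj : j < Module.finrank F K) (hP : Trans G j)
    {x : V} (hx : x ≠ 0) {c : Fin j → V} (hc : LinearIndependent F c)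
    (hcx : ∀ i, c i ∈ kline F K x) : Stab G c := by
  classical
  have hspanL : Submodule.span F (Set.range c) ≤ kline F K x :=
    Submodule.span_le.2 (Set.range_subset_iff.2 hcx)
  have hull' := S.hull_eq hj1 hj hP hc
  have hline : ∀ z, z ∉ Submodule.span F (Set.range c) →
      ∃ W, IsLine K G W ∧ Set.range c ⊆ W ∧ z ∉ W := by
    intro z hz
    by_contra hno
    push Not at hno
    exact hz (hull' ▸ Submodule.mem_sInf.2 fun W hW => hno W hW.1 hW.2)
  let R : V → V → Prop := fun a b => ∃ g ∈ G, (∀ i, g (c i) = c i) ∧ g a = b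
  have Rsymm : ∀ {a b}, R a b → R b a := by
    rintro a b ⟨g, hg, hgi, hga⟩
    exact ⟨g⁻¹, inv_mem hg, fun i => by
      show g.symm (c i) = c i
      conv_lhs => rw [← hgi i]
      exact g.symm_apply_apply _, by
      show g.symm b = a
      rw [← hga, g.symm_apply_apply]⟩
  have Rtrans : ∀ {a b d}, R a b → R b d → R a d := by
    rintro a b d ⟨g, hg, hgi, hga⟩ ⟨g', hg', hgi', hgb⟩
    exact ⟨g' * g, mul_mem hg' hg, fun i => by show g' (g (c i)) = c i; rw [hgi, hgi'], by
      show g' (g a) = d; rw [hga, hgb]⟩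
  have Rline : ∀ {W : Submodule F V}, IsLine K G W → Set.range c ⊆ W → ∀ {y w}, y ∉ W → w ∈ W →
      R y (y + w) := fun hW hcW y w hy hw => by
    obtain ⟨g, hg, hfix, hgy⟩ := S.move_out hW hy hw
    exact ⟨g, hg, fun i => hfix _ (hcW ⟨i, rfl⟩), hgy⟩
  have RK : ∀ (f : V ≃ₗ[K] V), f.restrictScalars F ∈ G → f x = x → ∀ a, R a (f a) :=
    fun f hf hfx a => ⟨f.restrictScalars F, hf, fun i => by
      obtain ⟨k, hk⟩ := mem_kline.1 (hcx i)
      show f (c i) = c i
      rw [← hk, map_smul, hfx], rfl⟩
  -- a line through the tuple other than the given one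
  obtain ⟨z₀, hz₀L, hz₀⟩ : ∃ z₀ ∈ kline F K x, z₀ ∉ Submodule.span F (Set.range c) := by
    by_contra hno
    push Not at hno
    have := Submodule.finrank_mono (show kline F K x ≤ Submodule.span F (Set.range c) from hno)
    rw [finrank_kline hx, finrank_span_eq_card hc, Fintype.card_fin] at this
    omega
  obtain ⟨W₀, hW₀, hcW₀, hz₀W⟩ := hline z₀ hz₀
  have hW₀L : W₀ ≠ kline F K x := fun e => hz₀W (e ▸ hz₀L)
  obtain ⟨d, hdW, hdL⟩ : ∃ d ∈ W₀, d ∉ kline F K x := by
    by_contra hno
    push Not at hno
    exact hW₀L (hW₀.eq_of_le (isLine_kline hx) hno)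
  have transl : ∀ {y a : V}, y ∉ kline F K x → a ∈ kline F K x → R y (y + a) := fun hy ha =>
    Rline (isLine_kline hx) (Set.range_subset_iff.2 hcx) hy ha
  have scaled : ∀ y : V, y ∉ kline F K x → ∀ β : K, β ≠ 0 → R y (β • y) := by
    intro y hy β hβ
    obtain ⟨ψ, hψ, hψy⟩ := sep (show y ∉ Submodule.span K {x} from hy)
    have hψx : ψ x = 0 := hψ x (Submodule.mem_span_singleton_self x)
    -- slopes of lines through the tuple
    let Sl : K → Prop := fun s => ∃ W, IsLine K G W ∧ Set.range c ⊆ W ∧
      ∃ a ∈ kline F K x, a + s • y ∈ W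
    obtain ⟨e, he0, he⟩ : ∃ e : K, e ≠ 0 ∧ Sl e := by
      by_cases hd : d ∈ Submodule.span K ({x, y} : Set V)
      · obtain ⟨a', b', hd'⟩ := Submodule.mem_span_pair.1 hd
        refine ⟨b', fun h => hdL ?_, W₀, hW₀, hcW₀, a' • x, smul_mem_span a' x, by rwa [hd']⟩
        rw [← hd', h, zero_smul, add_zero]; exact smul_mem_span a' x
      · have hnot : d ∉ Submodule.span K ({x, y - d} : Set V) := fun h => by
          obtain ⟨a', b', hd'⟩ := Submodule.mem_span_pair.1 h
          have e : (1 + b') • d = a' • x + b' • y := by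
            rw [add_smul, one_smul]; nth_rewrite 1 [← hd']; rw [smul_sub]; abel
          by_cases h1 : 1 + b' = 0
          · rw [h1, zero_smul] at e
            have hb' : b' = -1 := eq_neg_of_add_eq_zero_right h1
            rw [hb', neg_one_smul] at e
            have : y = a' • x := by rw [eq_comm, ← sub_eq_zero]; rw [sub_eq_add_neg]; exact e.symm
            exact hy (this ▸ smul_mem_span a' x)
          · refine hd ?_
            rw [show d = (1 + b')⁻¹ • (a' • x + b' • y) by
              rw [← e, smul_smul, inv_mul_cancel₀ h1, one_smul]]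
            exact Submodule.smul_mem _ _ (Submodule.mem_span_pair.2 ⟨a', b', rfl⟩)
        obtain ⟨φ, hφ, hφd⟩ := sep hnot
        obtain ⟨f, hf, hfz⟩ := S.tv_mem (hφ (y - d) (Submodule.subset_span (by simp)))
        have hfx : f x = x := by
          rw [hfz, hφ x (Submodule.subset_span (by simp)), zero_smul, add_zero]
        refine ⟨1, one_ne_zero, _, hW₀.map hf, ?_, 0, zero_mem _, d, hdW, ?_⟩
        · rintro _ ⟨i, rfl⟩
          refine ⟨c i, hcW₀ ⟨i, rfl⟩, ?_⟩
          obtain ⟨k, hk⟩ := mem_kline.1 (hcx i)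
          show f (c i) = c i
          rw [← hk, map_smul, hfx]
        · show f d = 0 + (1 : K) • y
          rw [hfz, hφd, one_smul, one_smul, zero_add, add_sub_cancel]
    have hSF : ∀ s, Sl s → ∀ l : F, Sl (l • s) := by
      rintro s ⟨W, hW, hcW, a, ha, hs⟩ l
      refine ⟨W, hW, hcW, l • a, (kline F K x).smul_mem l ha, ?_⟩
      rw [smul_assoc, ← smul_add]
      exact W.smul_mem l hs
    have hSκ : ∀ s, Sl s → ∀ κ : K, Algebra.norm F κ = 1 → Sl (κ * s) := by
      rintro s ⟨W, hW, hcW, a, ha, hs⟩ κ hκ
      obtain ⟨f, hf, hfz⟩ := S.diag_mem ψ ((κ - 1) • y) (by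
        rw [map_smul, hψy, smul_eq_mul, mul_one, add_sub_cancel]; exact hκ)
      have hfix : ∀ w ∈ kline F K x, f w = w := fun w hw => by
        rw [hfz, hψ w hw, zero_smul, add_zero]
      refine ⟨_, hW.map hf, ?_, a, ha, _, hs, ?_⟩
      · rintro _ ⟨i, rfl⟩
        exact ⟨c i, hcW ⟨i, rfl⟩, hfix _ (hcx i)⟩
      · show f (a + s • y) = a + (κ * s) • y
        rw [map_add, hfix a ha, hfz, map_smul, hψy, smul_smul, smul_eq_mul, mul_one, ← add_smul]
        congr 2
        ring
    let B : K → Prop := fun b => b ≠ 0 ∧ R y (b • y)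
    have hB1 : B 1 := ⟨one_ne_zero, 1, one_mem G, fun i => rfl, (one_smul K y).symm⟩
    have hstep : ∀ b s, B b → Sl s → b + s ≠ 0 → B (b + s) := by
      rintro b s ⟨hb, hR⟩ ⟨W, hW, hcW, a, ha, hs⟩ hne
      refine ⟨hne, ?_⟩
      by_cases hs0 : s = 0
      · rw [hs0, add_zero]; exact hR
      have hbs : ∀ k : K, k ≠ 0 → k • y ∉ kline F K x := fun k hk h => by
        obtain ⟨l, hl⟩ := mem_kline.1 h
        exact hy (mem_kline.2 ⟨k⁻¹ * l, by rw [mul_smul, hl, smul_smul, inv_mul_cancel₀ hk, one_smul]⟩)
      obtain ⟨a₀, ha₀, hnot⟩ : ∃ a₀ ∈ kline F K x, b • y + a₀ ∉ W := by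
        by_contra hno
        push Not at hno
        have h0 : b • y ∈ W := by simpa using hno 0 (zero_mem _)
        have hle : kline F K x ≤ W := fun a' ha' => by
          simpa using sub_mem (hno a' ha') h0
        have := (isLine_kline hx).eq_of_le hW hle
        exact hbs b hb (this ▸ h0)
      have h1 : R (b • y) (b • y + a₀) := transl (hbs b hb) ha₀
      have h2 : R (b • y + a₀) ((b + s) • y + (a₀ + a)) := by
        have e := Rline hW hcW hnot hs
        rwa [show b • y + a₀ + (a + s • y) = (b + s) • y + (a₀ + a) by rw [add_smul]; abel] at e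
      have h3 : R ((b + s) • y + (a₀ + a)) ((b + s) • y) := by
        exact Rsymm (transl (hbs _ hne) (add_mem ha₀ ha))
      exact Rtrans hR (Rtrans h1 (Rtrans h2 h3))
    obtain ⟨l, l', -, -, hκ, hirr⟩ : ∃ l l' : K, l ≠ 0 ∧ l' ≠ 0 ∧ Algebra.norm F (l' / l) = 1 ∧
        ∀ t : F, algebraMap F K t ≠ l' / l := by
      obtain ⟨k, hk⟩ : ∃ k : K, ∀ t : F, t • (1 : K) ≠ k := by
        by_contra hno
        push Not at hno
        have := Submodule.finrank_mono (show (⊤ : Submodule F K) ≤ Submodule.span F {(1 : K)} from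
          fun k _ => (hno k).elim fun t ht => Submodule.mem_span_singleton.2 ⟨t, ht⟩)
        rw [finrank_top, finrank_span_singleton (one_ne_zero (α := K))] at this
        have := S.prime.two_le
        omega
      obtain ⟨l, l', hl, hl', h1, h2⟩ := exists_norm_pair (F := F) (1 : K) k hk one_ne_zero
      exact ⟨_, _, hl, hl', h1, h2⟩
    set κ := l' / l
    have hκ0 : κ ≠ 0 := fun h => hirr 0 (by rw [map_zero, h])
    have hneg : ∀ s, Sl s → Sl (-s) := fun s hs => by
      simpa using hSF s hs (-1)
    have hflip : ∀ s, s ≠ 0 → Sl s → B (-s) → B s := by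
      intro s hs0 hs hb
      set t := κ * s
      have ht : Sl t := hSκ s hs κ hκ
      have ht0 : t ≠ 0 := mul_ne_zero hκ0 hs0
      have h1 : B (-s + t) := hstep _ _ hb ht (fun h => hirr 1 (by
        rw [map_one]
        have : t = 1 * s := by rw [one_mul]; linear_combination h
        exact (mul_right_cancel₀ hs0 this).symm))
      have h2 : B t := by
        have := hstep _ _ h1 hs (by rw [neg_add_cancel_comm]; exact ht0)
        rwa [neg_add_cancel_comm] at this
      have h3 : B (t + s) := hstep _ _ h2 hs (fun h => hirr (-1) (by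
        rw [map_neg, map_one]
        have : t = (-1) * s := by linear_combination h
        exact (mul_right_cancel₀ hs0 this).symm))
      have h4 := hstep _ _ h3 (hneg t ht) (by rw [add_neg_cancel_comm]; exact hs0)
      rwa [add_neg_cancel_comm] at h4
    have hSB : ∀ t, t ≠ 0 → Sl t → B t := by
      by_cases hex : ∃ s, s ≠ 0 ∧ Sl s ∧ B s
      · obtain ⟨s, hs0, hs, hbs⟩ := hex
        intro t ht0 ht
        by_cases h1 : t = -s
        · subst h1
          exact hflip (-s) ht0 ht (by rwa [neg_neg])
        · have h2 : B (s + t) := hstep _ _ hbs ht (fun h => h1 (by linear_combination h))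
          have h3 := hstep _ _ h2 (hneg s hs) (by rw [add_neg_cancel_comm]; exact ht0)
          rwa [add_neg_cancel_comm] at h3
      · push Not at hex
        exfalso
        have hshift : ∀ b s, B b → Sl s → B (b + s) := fun b s hb hs => by
          by_cases hs0 : s = 0
          · rwa [hs0, add_zero]
          refine hstep b s hb hs fun h => ?_
          have hbs : b = -s := eq_neg_of_add_eq_zero_left h
          exact hex (-s) (neg_ne_zero.2 hs0) (hneg s hs) (hbs ▸ hb)
        have := hshift 1 (-1)
        obtain ⟨T, hT⟩ : ∃ T : Submodule F K, ∀ t : K, t ∈ T ↔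
            ∀ l : F, ∀ b, B b → B (b + l • t) :=
          ⟨{ carrier := {t | ∀ l : F, ∀ b, B b → B (b + l • t)}
             zero_mem' := fun l b hb => by simpa using hb
             add_mem' := fun {s t} hs ht l b hb => by
               rw [smul_add, ← add_assoc]; exact ht l _ (hs l b hb)
             smul_mem' := fun m t ht l b hb => by rw [smul_smul]; exact ht _ b hb },
            fun t => Iff.rfl⟩
        have he' : ∀ q : K, Algebra.norm F q = 1 → q * e ∈ T := fun q hq => (hT _).2
          fun l b hb => hshift b _ hb (hSF _ (hSκ e he q hq) l)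
        have hU := eq_univ_of_stable S.prime
          (Submodule.span F {k : K | Algebra.norm F k = 1}) hirr
          (Submodule.subset_span (map_one _)) (fun k hk => by
            induction hk using Submodule.span_induction with
            | mem k hk => exact Submodule.subset_span (show Algebra.norm F (κ * k) = 1 by
                rw [map_mul, hκ, hk, mul_one])
            | zero => rw [mul_zero]; exact zero_mem _
            | add a b _ _ ha hb => rw [mul_add]; exact add_mem ha hb
            | smul m a _ ha => rw [mul_smul_comm]; exact Submodule.smul_mem _ m ha)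
        have hall : ∀ k : K, k * e ∈ T := fun k => by
          induction hU k using Submodule.span_induction with
          | mem k hk => exact he' k hk
          | zero => rw [zero_mul]; exact zero_mem _
          | add a b _ _ ha hb => rw [add_mul]; exact add_mem ha hb
          | smul m a _ ha => rw [smul_mul_assoc]; exact T.smul_mem m ha
        have := (hT _).1 (hall (-e⁻¹)) 1 1 hB1
        rw [one_smul, neg_mul, inv_mul_cancel₀ he0, add_neg_cancel] at this
        exact this.1 rfl
    -- closure under the span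
    let T : Submodule F K :=
      { carrier := {t | ∀ l : F, ∀ b, (b = 0 ∨ B b) → (b + l • t = 0 ∨ B (b + l • t))}
        zero_mem' := fun l b hb => by simpa using hb
        add_mem' := fun {s t} hs ht l b hb => by
          rw [smul_add, ← add_assoc]; exact ht l _ (hs l b hb)
        smul_mem' := fun m t ht l b hb => by rw [smul_smul]; exact ht _ b hb }
    have he' : ∀ q : K, Algebra.norm F q = 1 → q * e ∈ T := fun q hq l b hb => by
      have hs := hSF _ (hSκ e he q hq) l
      by_cases h0 : b + l • (q * e) = 0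
      · exact Or.inl h0
      refine Or.inr ?_
      rcases hb with rfl | hb
      · rw [zero_add] at h0 ⊢; exact hSB _ h0 hs
      · exact hstep _ _ hb hs h0
    have hU := eq_univ_of_stable S.prime
      (Submodule.span F {k : K | Algebra.norm F k = 1}) hirr
      (Submodule.subset_span (map_one _)) (fun k hk => by
        induction hk using Submodule.span_induction with
        | mem k hk => exact Submodule.subset_span (show Algebra.norm F (κ * k) = 1 by
            rw [map_mul, hκ, hk, mul_one])
        | zero => rw [mul_zero]; exact zero_mem _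
        | add a b _ _ ha hb => rw [mul_add]; exact add_mem ha hb
        | smul m a _ ha => rw [mul_smul_comm]; exact Submodule.smul_mem _ m ha)
    have hall : ∀ k : K, k * e ∈ T := fun k => by
      induction hU k using Submodule.span_induction with
      | mem k hk => exact he' k hk
      | zero => rw [zero_mul]; exact zero_mem _
      | add a b _ _ ha hb => rw [add_mul]; exact add_mem ha hb
      | smul m a _ ha => rw [smul_mul_assoc]; exact T.smul_mem m ha
    have := hall (β / e) 1 0 (Or.inl rfl)
    rw [one_smul, zero_add, div_mul_cancel₀ _ he0] at this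
    exact (this.resolve_left hβ).2
  have merge : ∀ y z : V, y ∉ kline F K x → z ∉ kline F K x → R y z := by
    intro y z hy hz
    by_cases hzy : z ∈ Submodule.span K ({x, y} : Set V)
    · obtain ⟨a', b', rfl⟩ := Submodule.mem_span_pair.1 hzy
      have hb : b' ≠ 0 := fun h => hz (by rw [h, zero_smul, add_zero]; exact smul_mem_span a' x)
      have hby : b' • y ∉ kline F K x := fun h => hy (by
        obtain ⟨l, hl⟩ := mem_kline.1 h
        exact mem_kline.2 ⟨b'⁻¹ * l, by rw [mul_smul, hl, smul_smul, inv_mul_cancel₀ hb, one_smul]⟩)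
      refine Rtrans (scaled y hy b' hb) ?_
      rw [add_comm]
      exact transl hby (smul_mem_span a' x)
    · have hnot : y ∉ Submodule.span K ({x, z - y} : Set V) := fun h => by
        obtain ⟨a', b', hd'⟩ := Submodule.mem_span_pair.1 h
        by_cases hb : b' = 0
        · rw [hb, zero_smul, add_zero] at hd'
          exact hy (hd' ▸ smul_mem_span a' x)
        · refine hzy (Submodule.mem_span_pair.2 ⟨-(b'⁻¹ * a'), b'⁻¹ + 1, ?_⟩)
          have e : b'⁻¹ • y = b'⁻¹ • (a' • x) + (z - y) := by
            nth_rewrite 1 [← hd']; rw [smul_add, smul_smul b'⁻¹ b', inv_mul_cancel₀ hb, one_smul]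
          rw [add_smul, one_smul, e, neg_smul, mul_smul]; abel
      obtain ⟨φ, hφ, hφy⟩ := sep hnot
      obtain ⟨f, hf, hfz⟩ := S.tv_mem (hφ (z - y) (Submodule.subset_span (by simp)))
      have e := RK f hf (by rw [hfz, hφ x (Submodule.subset_span (by simp)), zero_smul, add_zero]) y
      rwa [hfz, hφy, one_smul, add_sub_cancel] at e
  intro y z hy hz
  have out : ∀ w : V, w ∉ Submodule.span F (Set.range c) → ∃ w', w' ∉ kline F K x ∧ R w w' := by
    intro w hw
    by_cases hwL : w ∈ kline F K x
    · obtain ⟨W, hW, hcW, hwW⟩ := hline w hw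
      obtain ⟨d', hd'W, hd'L⟩ : ∃ d' ∈ W, d' ∉ kline F K x := by
        by_contra hno
        push Not at hno
        exact hwW ((hW.eq_of_le (isLine_kline hx) hno).symm ▸ hwL)
      exact ⟨w + d', fun h => hd'L (by simpa using sub_mem h hwL), Rline hW hcW hwW hd'W⟩
    · exact ⟨w, hwL, 1, one_mem G, fun i => rfl, rfl⟩
  obtain ⟨y', hy', r₁⟩ := out y hy
  obtain ⟨z', hz', r₂⟩ := out z hz
  exact Rtrans r₁ (Rtrans (merge y' z' hy' hz') (Rsymm r₂))

/-- With at least three dimensions the pointwise stabiliser of a line is transitive off it. -/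
theorem Setup.stab_line (hm : 3 ≤ Module.finrank K V) {x : V}
    {c : Fin (Module.finrank F K) → V} (hc : LinearIndependent F c) (hx : x ≠ 0)
    (hcx : ∀ i, c i ∈ kline F K x) : Stab G c := by
  have hspan : Submodule.span F (Set.range c) = kline F K x :=
    Submodule.eq_of_le_of_finrank_eq (Submodule.span_le.2 (Set.range_subset_iff.2 hcx))
      (by rw [finrank_span_eq_card hc, finrank_kline hx, Fintype.card_fin])
  have direct : ∀ y z : V, y ∉ kline F K x → z ∉ Submodule.span K ({x, y} : Set V) →
      ∃ f : V ≃ₗ[K] V, f.restrictScalars F ∈ G ∧ f x = x ∧ f y = z := by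
    intro y z hy hzy
    have hnot : y ∉ Submodule.span K ({x, z - y} : Set V) := fun h => by
      obtain ⟨a', b', hd'⟩ := Submodule.mem_span_pair.1 h
      by_cases hb : b' = 0
      · rw [hb, zero_smul, add_zero] at hd'
        exact hy (hd' ▸ smul_mem_span a' x)
      · refine hzy (Submodule.mem_span_pair.2 ⟨-(b'⁻¹ * a'), b'⁻¹ + 1, ?_⟩)
        have e : b'⁻¹ • y = b'⁻¹ • (a' • x) + (z - y) := by
          nth_rewrite 1 [← hd']; rw [smul_add, smul_smul b'⁻¹ b', inv_mul_cancel₀ hb, one_smul]
        rw [add_smul, one_smul, e, neg_smul, mul_smul]; abel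
    obtain ⟨φ, hφ, hφy⟩ := sep hnot
    obtain ⟨f, hf, hfz⟩ := S.tv_mem (hφ (z - y) (Submodule.subset_span (by simp)))
    exact ⟨f, hf, by rw [hfz, hφ x (Submodule.subset_span (by simp)), zero_smul, add_zero],
      by rw [hfz, hφy, one_smul, add_sub_cancel]⟩
  intro y z hy hz
  classical
  rw [hspan] at hy hz
  obtain ⟨w, hw⟩ : ∃ w, w ∉ Submodule.span K ({x, y} : Set V) := by
    by_contra hno
    push Not at hno
    have h1 : Module.finrank K (Submodule.span K ({x, y} : Set V)) ≤ 2 :=
      (finrank_span_le_card _).trans (by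
        rw [Set.toFinset_insert, Set.toFinset_singleton]; exact Finset.card_le_two)
    rw [show Submodule.span K ({x, y} : Set V) = ⊤ from top_le_iff.1 fun v _ => hno v,
      finrank_top] at h1
    omega
  have fixc : ∀ f : V ≃ₗ[K] V, f x = x → ∀ i, f (c i) = c i := fun f hf i => by
    obtain ⟨k, hk⟩ := mem_kline.1 (hcx i)
    rw [← hk, map_smul, hf]
  by_cases hzy : z ∈ Submodule.span K ({x, y} : Set V)
  · obtain ⟨f₁, hf₁, h1x, h1y⟩ := direct y w hy hw
    obtain ⟨f₂, hf₂, h2x, h2w⟩ := direct w z
      (fun h => hw (Submodule.span_mono (by simp) h)) (fun h => by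
        obtain ⟨p, q, hpq⟩ := Submodule.mem_span_pair.1 h
        by_cases hq0 : q = 0
        · rw [hq0, zero_smul, add_zero] at hpq
          exact hz (hpq ▸ smul_mem_span p x)
        · refine hw ?_
          rw [show w = q⁻¹ • (z - p • x) by
            rw [← hpq, add_sub_cancel_left, smul_smul, inv_mul_cancel₀ hq0, one_smul]]
          exact Submodule.smul_mem _ _ (sub_mem hzy
            (Submodule.smul_mem _ _ (Submodule.subset_span (by simp)))))
    refine ⟨_, mul_mem hf₂ hf₁, fun i => ?_, ?_⟩
    · show f₂ (f₁ (c i)) = c i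
      rw [fixc f₁ h1x, fixc f₂ h2x]
    · show f₂ (f₁ y) = z
      rw [h1y, h2w]
  · obtain ⟨f, hf, hfx, hfy⟩ := direct y z hy hzy
    exact ⟨_, hf, fixc f hfx, hfy⟩

theorem Setup.trans_le : ∀ j, 1 ≤ j → j ≤ Module.finrank F K → Trans G j := by
  intro j
  induction j with
  | zero => intro h; omega
  | succ j ih =>
    intro _ hj
    rcases Nat.eq_zero_or_pos j with rfl | hj0
    · exact S.trans_one
    obtain ⟨x, hx⟩ := S.exists_vec
    obtain ⟨c, hc, hcx⟩ := S.exists_tuple (show j ≤ Module.finrank F K by omega) hx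
    exact trans_succ (ih hj0 (by omega)) hc
      (S.stab_lt hj0 (by omega) (ih hj0 (by omega)) hx hc hcx)

theorem Setup.trans_top (hm : 3 ≤ Module.finrank K V) : Trans G (Module.finrank F K + 1) := by
  obtain ⟨x, hx⟩ := S.exists_vec
  obtain ⟨c, hc, hcx⟩ := S.exists_tuple le_rfl hx
  exact trans_succ (S.trans_le _ S.prime.one_le le_rfl) hc (S.stab_line hm hc hx hcx)

end CfsgLib.GeoExt
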